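import Mathlib

/-!
Finite groups in which all nontrivial subgroups of a cyclic subgroup of even order have the same
normaliser: consequences for involution centralisers.
-/

set_option autoImplicit false

namespace CfsgLib.NormCyclicEven16

/-- All nontrivial subgroups of a cyclic subgroup of even order have the same normaliser. -/
def Hyp (G : Type*) [Group G] : Prop :=
  ∀ X : Subgroup G, IsCyclic ↥X → Even (Nat.card ↥X) → ∀ Y : Subgroup G, Y ≤ X → Y ≠ ⊥ →
    Subgroup.normalizer (X : Set G) = Subgroup.normalizer (Y : Set G)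

variable {G : Type*} [Group G]

/-- `g` normalises the cyclic subgroup generated by `y`. -/
def Nm (g y : G) : Prop := g * y * g⁻¹ ∈ Subgroup.zpowers y

/-- `g` is a `2`-element. -/
def Two (g : G) : Prop := ∃ k : ℕ, g ^ 2 ^ k = 1

theorem Two.orderOf_eq {g : G} (h : Two g) : ∃ k : ℕ, orderOf g = 2 ^ k := by
  obtain ⟨k, hk⟩ := h
  obtain ⟨j, -, hj⟩ := (Nat.dvd_prime_pow Nat.prime_two).mp (orderOf_dvd_of_pow_eq_one hk)
  exact ⟨j, hj⟩

theorem eq_one_of_two_of_odd {g : G} (h : Two g) (ho : Odd (orderOf g)) : g = 1 := by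
  obtain ⟨k, hk⟩ := h.orderOf_eq
  rcases k with - | k
  · exact orderOf_eq_one_iff.mp (by rw [hk, pow_zero])
  · rw [hk] at ho
    exact absurd ho (Nat.not_odd_iff_even.mpr ⟨2 ^ k, by ring⟩)

theorem two_of_mem {S : Subgroup G} (hS : IsPGroup 2 ↥S) {g : G} (hg : g ∈ S) : Two g := by
  obtain ⟨k, hk⟩ := hS ⟨g, hg⟩
  exact ⟨k, congrArg Subtype.val hk⟩

theorem Two.inv {g : G} (h : Two g) : Two g⁻¹ := by
  obtain ⟨k, hk⟩ := h
  exact ⟨k, by rw [inv_pow, hk, inv_one]⟩

theorem Two.conj {g : G} (h : Two g) (c : G) : Two (c * g * c⁻¹) := by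
  obtain ⟨k, hk⟩ := h
  exact ⟨k, by rw [conj_pow, hk, mul_one, mul_inv_cancel]⟩

theorem orderOf_eq_two_iff' {g : G} : orderOf g = 2 ↔ g * g = 1 ∧ g ≠ 1 := by
  rw [orderOf_eq_iff (by norm_num)]
  constructor
  · rintro ⟨h, hm⟩
    exact ⟨by rw [← pow_two]; exact h, fun h1 => hm 1 (by norm_num) (by norm_num) (by rw [pow_one, h1])⟩
  · rintro ⟨h, hne⟩
    refine ⟨by rw [pow_two]; exact h, fun m hm hm0 => ?_⟩
    obtain rfl : m = 1 := by omega
    rwa [pow_one]

theorem two_of_orderOf_eq_two {g : G} (h : orderOf g = 2) : Two g :=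
  ⟨1, by rw [pow_one, ← h, pow_orderOf_eq_one]⟩

theorem orderOf_conj' (c x : G) : orderOf (c * x * c⁻¹) = orderOf x := by
  simpa using orderOf_injective (MulAut.conj c).toMonoidHom (MulAut.conj c).injective x

theorem commute_conj_iff (c x y : G) : Commute (c * x * c⁻¹) (c * y * c⁻¹) ↔ Commute x y := by
  constructor
  · intro h
    have := h.map (MulAut.conj c⁻¹).toMonoidHom
    simpa [MulAut.conj_apply, mul_assoc] using this
  · intro h
    exact h.map (MulAut.conj c).toMonoidHom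

/-- The involution of a cyclic subgroup of even order. -/
theorem eq_pow_half [Finite G] {x t : G} (ht : orderOf t = 2) (htx : t ∈ Subgroup.zpowers x) :
    t = x ^ (orderOf x / 2) ∧ Even (orderOf x) := by
  obtain ⟨i, rfl⟩ := mem_powers_iff_mem_zpowers.mpr htx
  simp only at ht ⊢
  have heven : Even (orderOf x) :=
    even_iff_two_dvd.mpr (ht ▸ orderOf_pow_dvd (x := x) i)
  obtain ⟨m, hm⟩ := heven
  have hdvd : orderOf x ∣ i * 2 := by
    rw [orderOf_dvd_iff_pow_eq_one, pow_mul, ← ht, pow_orderOf_eq_one]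
  obtain ⟨c, hc⟩ : m ∣ i := by
    rw [hm, ← two_mul, mul_comm i 2] at hdvd
    exact (mul_dvd_mul_iff_left two_ne_zero).mp hdvd
  refine ⟨?_, ⟨m, hm⟩⟩
  have hx2 : x ^ (m * 2) = 1 := by
    rw [mul_two, ← hm, pow_orderOf_eq_one]
  have hm2 : orderOf x / 2 = m := by omega
  rw [hm2, hc]
  rcases Nat.even_or_odd c with ⟨d, hd⟩ | ⟨d, hd⟩
  · exfalso
    have : x ^ i = 1 := by rw [hc, hd, ← two_mul, ← mul_assoc, pow_mul, hx2, one_pow]
    rw [this, orderOf_one] at ht
    omega
  · rw [hd, mul_add, ← mul_assoc, pow_add, pow_mul, hx2, one_pow, mul_one, one_mul]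

theorem involution_unique [Finite G] {x t u : G} (ht : orderOf t = 2) (hu : orderOf u = 2)
    (htx : t ∈ Subgroup.zpowers x) (hux : u ∈ Subgroup.zpowers x) : t = u :=
  (eq_pow_half ht htx).1.trans (eq_pow_half hu hux).1.symm

/-- A nontrivial `2`-element has a power which is an involution. -/
theorem Two.exists_involution {g : G} (h : Two g) (hg : g ≠ 1) :
    ∃ t, orderOf t = 2 ∧ t ∈ Subgroup.zpowers g := by
  obtain ⟨k, hk⟩ := h.orderOf_eq
  rcases k with - | k
  · exact absurd (orderOf_eq_one_iff.mp (by rw [hk, pow_zero])) hg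
  refine ⟨g ^ 2 ^ k, ?_, Subgroup.npow_mem_zpowers g _⟩
  rw [orderOf_eq_two_iff']
  refine ⟨?_, fun h1 => ?_⟩
  · rw [← pow_add, ← two_mul, ← pow_succ', ← hk, pow_orderOf_eq_one]
  · have := orderOf_dvd_of_pow_eq_one h1
    rw [hk, Nat.pow_dvd_pow_iff_le_right (le_refl 2)] at this
    omega

/-- A `2`-element of order at least four has a power of order four. -/
theorem Two.exists_order_four {g : G} (h : Two g) (hg : g * g ≠ 1) :
    ∃ j : ℕ, (g ^ 2 ^ j) ^ 4 = 1 ∧ g ^ 2 ^ j * g ^ 2 ^ j ≠ 1 := by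
  obtain ⟨k, hk⟩ := h.orderOf_eq
  have hk2 : 2 ≤ k := by
    by_contra hlt
    have hdvd : orderOf g ∣ 2 := by
      rw [hk]
      exact (pow_dvd_pow 2 (show k ≤ 1 by omega)).trans (by simp)
    exact hg (by rw [← pow_two]; exact orderOf_dvd_iff_pow_eq_one.mp hdvd)
  refine ⟨k - 2, ?_, fun h1 => ?_⟩
  · rw [← pow_mul, show 2 ^ (k - 2) * 4 = 2 ^ k by
      rw [show (4 : ℕ) = 2 ^ 2 by norm_num, ← pow_add]; congr 1; omega, ← hk, pow_orderOf_eq_one]
  · have h2 : g ^ 2 ^ (k - 1) = 1 := by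
      rw [show k - 1 = k - 2 + 1 by omega, pow_succ, pow_mul, pow_two]; exact h1
    have := orderOf_dvd_of_pow_eq_one h2
    rw [hk, Nat.pow_dvd_pow_iff_le_right (le_refl 2)] at this
    omega

theorem nm_iff_mem_normalizer [Finite G] {g y : G} :
    Nm g y ↔ g ∈ Subgroup.normalizer ((Subgroup.zpowers y : Subgroup G) : Set G) := by
  constructor
  · intro h
    have hle : (Subgroup.zpowers y).map (MulAut.conj g).toMonoidHom ≤ Subgroup.zpowers y := by
      rw [MonoidHom.map_zpowers, Subgroup.zpowers_le]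
      exact h
    have heq : (Subgroup.zpowers y).map (MulAut.conj g).toMonoidHom = Subgroup.zpowers y :=
      Subgroup.eq_of_le_of_card_ge hle
        (Subgroup.card_map_of_injective (MulAut.conj g).injective).ge
    rw [Subgroup.mem_normalizer_iff]
    intro z
    constructor
    · intro hz
      exact hle ⟨z, hz, rfl⟩
    · intro hz
      rw [← heq] at hz
      obtain ⟨w, hw, hwz⟩ := hz
      obtain rfl : w = z := (MulAut.conj g).injective hwz
      exact hw
  · intro h
    exact (Subgroup.mem_normalizer_iff.mp h y).mp (Subgroup.mem_zpowers y)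

theorem Hyp.of_injective {K : Type*} [Group K] (f : K →* G) (hf : Function.Injective f)
    (h : Hyp G) : Hyp K := by
  intro X hX hXe Y hYX hY
  have key : ∀ (Z : Subgroup K) (k : K), k ∈ Subgroup.normalizer (Z : Set K) ↔
      f k ∈ Subgroup.normalizer ((Z.map f : Subgroup G) : Set G) := by
    intro Z k
    simp only [Subgroup.mem_normalizer_iff]
    constructor
    · intro hk z
      constructor
      · rintro ⟨w, hw, rfl⟩
        exact ⟨k * w * k⁻¹, (hk w).mp hw, by simp⟩
      · rintro ⟨w, hw, hwz⟩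
        refine ⟨k⁻¹ * w * k, (hk _).mpr (by simpa [mul_assoc] using hw), ?_⟩
        simp [hwz, mul_assoc]
    · intro hk w
      have := hk (f w)
      rw [Subgroup.mem_map_iff_mem hf, ← map_inv, ← map_mul, ← map_mul,
        Subgroup.mem_map_iff_mem hf] at this
      exact this
  have hcard : Nat.card ↥(X.map f) = Nat.card ↥X := Subgroup.card_map_of_injective hf
  have hcyc : IsCyclic ↥(X.map f) := (X.equivMapOfInjective f hf).isCyclic.mp hX
  have hne : Y.map f ≠ ⊥ := fun h0 => hY ((Subgroup.map_eq_bot_iff_of_injective Y hf).mp h0)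
  have := h (X.map f) hcyc (hcard.symm ▸ hXe) (Y.map f) (Subgroup.map_mono hYX) hne
  ext k
  rw [key, key, this]

variable [Finite G]

theorem Hyp.nm_iff (h : Hyp G) {x z g : G} (hx : Even (orderOf x))
    (hz : z ∈ Subgroup.zpowers x) (hz1 : z ≠ 1) : Nm g x ↔ Nm g z := by
  rw [nm_iff_mem_normalizer, nm_iff_mem_normalizer,
    h (Subgroup.zpowers x) inferInstance (by rwa [Nat.card_zpowers]) (Subgroup.zpowers z)
      (Subgroup.zpowers_le.mpr hz) (fun h0 => hz1 (Subgroup.zpowers_eq_bot.mp h0))]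

theorem nm_involution_iff {t g : G} (ht : orderOf t = 2) : Nm g t ↔ Commute g t := by
  constructor
  · intro h
    have h2 : orderOf (g * t * g⁻¹) = 2 := (orderOf_conj' g t).trans ht
    have heq : g * t * g⁻¹ = t := involution_unique h2 ht h (Subgroup.mem_zpowers t)
    exact mul_inv_eq_iff_eq_mul.mp heq
  · intro h
    unfold Nm
    rw [h.eq, mul_inv_cancel_right]
    exact Subgroup.mem_zpowers t

/-- If `x` powers to the involution `t`, each nontrivial subgroup of `⟨x⟩` has normaliser `C(t)`. -/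
theorem Hyp.nm_iff_commute (h : Hyp G) {x t z g : G} (ht : orderOf t = 2)
    (htx : t ∈ Subgroup.zpowers x) (hz : z ∈ Subgroup.zpowers x) (hz1 : z ≠ 1) :
    Nm g z ↔ Commute g t := by
  have heven := (eq_pow_half ht htx).2
  have ht1 : t ≠ 1 := (orderOf_eq_two_iff'.mp ht).2
  rw [← nm_involution_iff ht, ← h.nm_iff heven hz hz1, ← h.nm_iff heven htx ht1]

theorem Hyp.nm_of_commute (h : Hyp G) {x t z g : G} (ht : orderOf t = 2)
    (htx : t ∈ Subgroup.zpowers x) (hz : z ∈ Subgroup.zpowers x) (hg : Commute g t) : Nm g z := by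
  rcases eq_or_ne z 1 with rfl | hz1
  · simp [Nm]
  · exact (h.nm_iff_commute ht htx hz hz1).mpr hg

theorem mem_zpowers_mul_of_odd {a t : G} (ht : orderOf t = 2) (hat : Commute a t)
    (ha : Odd (orderOf a)) :
    a ∈ Subgroup.zpowers (t * a) ∧ t ∈ Subgroup.zpowers (t * a) := by
  have htt : t ^ 2 = 1 := by rw [← ht, pow_orderOf_eq_one]
  have h1 : (t * a) ^ (orderOf a + 1) = a := by
    obtain ⟨m, hm⟩ := ha
    rw [hat.symm.mul_pow, pow_succ a, pow_orderOf_eq_one, one_mul, hm,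
      show 2 * m + 1 + 1 = 2 * (m + 1) by ring, pow_mul, htt, one_pow, one_mul]
  have h2 : (t * a) ^ orderOf a = t := by
    obtain ⟨m, hm⟩ := ha
    rw [hat.symm.mul_pow, pow_orderOf_eq_one, mul_one, hm, pow_succ, pow_mul, htt, one_pow, one_mul]
  have m1 := Subgroup.npow_mem_zpowers (t * a) (orderOf a + 1)
  have m2 := Subgroup.npow_mem_zpowers (t * a) (orderOf a)
  rw [h1] at m1
  rw [h2] at m2
  exact ⟨m1, m2⟩

theorem Hyp.odd_nm_iff (h : Hyp G) {a t g : G} (ht : orderOf t = 2) (hat : Commute a t)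
    (ha : Odd (orderOf a)) (ha1 : a ≠ 1) : Nm g a ↔ Commute g t :=
  have := mem_zpowers_mul_of_odd ht hat ha
  h.nm_iff_commute ht this.2 this.1 ha1

theorem Hyp.odd_nm (h : Hyp G) {a t g : G} (ht : orderOf t = 2) (hat : Commute a t)
    (ha : Odd (orderOf a)) (hg : Commute g t) : Nm g a :=
  have := mem_zpowers_mul_of_odd ht hat ha
  h.nm_of_commute ht this.2 this.1 hg

theorem Hyp.commute_of_commute_odd (h : Hyp G) {a t g : G} (ht : orderOf t = 2)
    (hat : Commute a t) (ha : Odd (orderOf a)) (ha1 : a ≠ 1) (hga : Commute g a) :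
    Commute g t :=
  (h.odd_nm_iff ht hat ha ha1).mp (by
    unfold Nm
    rw [hga.eq, mul_inv_cancel_right]
    exact Subgroup.mem_zpowers a)

omit [Finite G] in
theorem mul_pow_mem_zpowers {a b : G} (hb : ∀ n : ℕ, Nm (b ^ n) a) (n : ℕ) :
    (a * b) ^ n * (b ^ n)⁻¹ ∈ Subgroup.zpowers a := by
  induction n with
  | zero => simp
  | succ n ih =>
    have key : (a * b) ^ (n + 1) * (b ^ (n + 1))⁻¹ =
        ((a * b) ^ n * (b ^ n)⁻¹) * (b ^ n * a * (b ^ n)⁻¹) := by
      rw [pow_succ, pow_succ]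
      group
    rw [key]
    exact mul_mem ih (hb n)

/-- The elements of odd order in the centraliser of an involution. -/
def oddPart (h : Hyp G) {t : G} (ht : orderOf t = 2) : Subgroup G where
  carrier := {a | Commute a t ∧ Odd (orderOf a)}
  one_mem' := ⟨Commute.one_left t, by simp⟩
  inv_mem' := fun {a} ha => ⟨ha.1.inv_left, by rw [orderOf_inv]; exact ha.2⟩
  mul_mem' := by
    rintro a b ⟨hat, ha⟩ ⟨hbt, hb⟩
    refine ⟨hat.mul_left hbt, ?_⟩
    have h1 := mul_pow_mem_zpowers (fun n => h.odd_nm ht hat ha (hbt.pow_left n)) (orderOf b)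
    rw [pow_orderOf_eq_one, inv_one, mul_one] at h1
    have h2 : orderOf (a * b) ∣ orderOf b * orderOf a := by
      obtain ⟨i, hi⟩ := h1
      refine orderOf_dvd_of_pow_eq_one ?_
      rw [pow_mul, ← hi]
      show (a ^ i) ^ orderOf a = 1
      rw [← zpow_natCast, ← zpow_mul, mul_comm, zpow_mul, zpow_natCast, pow_orderOf_eq_one,
        one_zpow]
    exact (hb.mul ha).of_dvd_nat h2

theorem mem_oddPart {h : Hyp G} {t : G} {ht : orderOf t = 2} {a : G} :
    a ∈ oddPart h ht ↔ Commute a t ∧ Odd (orderOf a) := Iff.rfl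

variable {t : G}

theorem Hyp.oddPart_conj_mem (h : Hyp G) (ht : orderOf t = 2) {a g : G}
    (ha : a ∈ oddPart h ht) (hg : Commute g t) : g * a * g⁻¹ ∈ oddPart h ht :=
  ⟨(hg.mul_left ha.1).mul_left hg.inv_left, by rw [orderOf_conj']; exact ha.2⟩

theorem two_elem_eq_one_of_mem (h : Hyp G) (ht : orderOf t = 2) {a : G}
    (ha : a ∈ oddPart h ht) (h2 : Two a) : a = 1 :=
  eq_one_of_two_of_odd h2 ha.2

/-- An odd element of `C(t)` moving `s` only by a `2`-element centralises it. -/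
theorem Hyp.commute_of_two (h : Hyp G) (ht : orderOf t = 2) {a s : G} (ha : a ∈ oddPart h ht)
    (hs : Commute s t) (h2 : Two (a * s * a⁻¹ * s⁻¹)) : Commute a s := by
  have hm : a * s * a⁻¹ * s⁻¹ ∈ oddPart h ht := by
    rw [show a * s * a⁻¹ * s⁻¹ = a * (s * a⁻¹ * s⁻¹) by group]
    exact mul_mem ha (h.oddPart_conj_mem ht (inv_mem ha) hs)
  have := two_elem_eq_one_of_mem h ht hm h2
  exact mul_inv_eq_iff_eq_mul.mp (mul_inv_eq_one.mp this)

/-- The `2`-elements powering to `t` centralise the odd part of `C(t)`. -/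
theorem Hyp.commute_oddPart (h : Hyp G) (ht : orderOf t = 2) {x a : G} (hx : Two x)
    (htx : t ∈ Subgroup.zpowers x) (ha : a ∈ oddPart h ht) : Commute a x := by
  have hxt : Commute x t := by
    obtain ⟨i, rfl⟩ := htx
    exact Commute.self_zpow x i
  refine h.commute_of_two ht ha hxt ?_
  have h1 : a * x * a⁻¹ * x⁻¹ ∈ Subgroup.zpowers x :=
    mul_mem (h.nm_of_commute ht htx (Subgroup.mem_zpowers x) ha.1)
      (inv_mem (Subgroup.mem_zpowers x))
  obtain ⟨i, hi⟩ := h1
  obtain ⟨k, hk⟩ := hx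
  refine ⟨k, ?_⟩
  rw [← hi]
  show (x ^ i) ^ 2 ^ k = 1
  rw [← zpow_natCast, ← zpow_mul, mul_comm, zpow_mul, zpow_natCast, hk, one_zpow]

/-- An involution centralising a nontrivial odd element of `C(t)` has the same centraliser. -/
theorem Hyp.commute_iff_of_common (h : Hyp G) (ht : orderOf t = 2) {a s : G}
    (ha : a ∈ oddPart h ht) (ha1 : a ≠ 1) (hs : orderOf s = 2) (hsa : Commute s a) (g : G) :
    Commute g s ↔ Commute g t :=
  (h.odd_nm_iff hs hsa.symm ha.2 ha1).symm.trans (h.odd_nm_iff ht ha.1 ha.2 ha1)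

theorem oddPart_eq_of_commute_iff (h : Hyp G) (ht : orderOf t = 2) {s : G} (hs : orderOf s = 2)
    (hiff : ∀ g, Commute g s ↔ Commute g t) : oddPart h hs = oddPart h ht := by
  ext a
  simp only [mem_oddPart, hiff a]

theorem Hyp.oddPart_mul_comm_of_nm (h : Hyp G) (ht : orderOf t = 2) {a b : G}
    (ha : a ∈ oddPart h ht) (hb : b ∈ oddPart h ht) : Nm a b :=
  h.odd_nm ht hb.1 hb.2 ha.1

end CfsgLib.NormCyclicEven16
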