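import Cfsg.Agent.NormCyclicEven16.Dedekind

/-!
The centraliser of an involution: abelian odd part and Sylow `2`-complement.
-/

set_option autoImplicit false

namespace CfsgLib.NormCyclicEven16

variable {G : Type*} [Group G] [Finite G] {t : G}

theorem Hyp.oddPart_comm (h : Hyp G) (ht : orderOf t = 2) :
    ∀ a ∈ oddPart h ht, ∀ b ∈ oddPart h ht, Commute a b := by
  refine commute_of_cyclic_normal _ (fun a ha b hb => h.oddPart_mul_comm_of_nm ht ha hb) ?_
  intro a ha h4 g _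
  have h1 : a = 1 := two_elem_eq_one_of_mem h ht ha ⟨2, by simpa using h4⟩
  rw [h1]
  exact Commute.one_right g

theorem mem_centralizer_singleton_iff' {g u : G} :
    g ∈ Subgroup.centralizer ({u} : Set G) ↔ Commute g u :=
  Subgroup.mem_centralizer_singleton_iff

theorem Hyp.exists_mul_mem (h : Hyp G) (ht : orderOf t = 2) (S : Sylow 2 G)
    (hS : ∀ s ∈ S, Commute s t) {c : G} (hc : Commute c t) :
    ∃ a ∈ oddPart h ht, ∃ s ∈ S, c = a * s := by
  obtain ⟨C, hC⟩ : ∃ C, C = Subgroup.centralizer ({t} : Set G) := ⟨_, rfl⟩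
  have hmC : ∀ g, g ∈ C ↔ Commute g t := fun g => hC ▸ mem_centralizer_singleton_iff'
  obtain ⟨A, hA⟩ : ∃ A, A = (oddPart h ht).subgroupOf C := ⟨_, rfl⟩
  haveI hAn : A.Normal := by
    subst hA
    refine ⟨fun a ha g => ?_⟩
    rw [Subgroup.mem_subgroupOf] at ha ⊢
    exact h.oddPart_conj_mem ht ha ((hmC _).mp g.2)
  have hSC : (S : Subgroup G) ≤ C := fun s hs => (hmC s).mpr (hS s hs)
  have hq : IsPGroup 2 (↥C ⧸ A) := by
    intro q
    obtain ⟨g, rfl⟩ := QuotientGroup.mk_surjective q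
    refine ⟨(orderOf (g : G)).factorization 2, ?_⟩
    rw [← QuotientGroup.mk_pow, QuotientGroup.eq_one_iff, hA, Subgroup.mem_subgroupOf]
    refine ⟨by rw [SubgroupClass.coe_pow]; exact ((hmC _).mp g.2).pow_left _, ?_⟩
    rw [SubgroupClass.coe_pow, orderOf_pow_of_dvd (by positivity) (Nat.ordProj_dvd _ _),
      ← Nat.not_even_iff_odd, even_iff_two_dvd]
    exact Nat.not_dvd_ordCompl Nat.prime_two (orderOf_pos _).ne'
  obtain ⟨n, hn⟩ := IsPGroup.iff_card.mp hq
  have hsup : A ⊔ (S : Subgroup G).subgroupOf C = ⊤ := by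
    rw [← Subgroup.index_eq_one]
    refine Nat.eq_one_of_dvd_coprimes (a := 2 ^ n) (b := (S : Subgroup G).relIndex C) ?_ ?_
      (Subgroup.index_dvd_of_le le_sup_right)
    · refine Nat.Coprime.pow_left n ?_
      refine Nat.Prime.coprime_iff_not_dvd Nat.prime_two |>.mpr fun hdvd => ?_
      exact S.not_dvd_index (hdvd.trans (Subgroup.relIndex_dvd_index_of_le hSC))
    · have := Subgroup.index_dvd_of_le (le_sup_left : A ≤ A ⊔ (S : Subgroup G).subgroupOf C)
      rwa [Subgroup.index_eq_card A, hn] at this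
  have hmem : (⟨c, (hmC c).mpr hc⟩ : ↥C) ∈ A ⊔ (S : Subgroup G).subgroupOf C :=
    hsup ▸ Subgroup.mem_top _
  obtain ⟨a, ha, s, hs, has⟩ := Subgroup.mem_sup_of_normal_left.mp hmem
  exact ⟨a, by simpa [hA, Subgroup.mem_subgroupOf] using ha, s, hs,
    (congrArg Subtype.val has).symm⟩

/-- A `2`-subgroup of `C(t)` is conjugate into a Sylow subgroup by an odd element. -/
theorem Hyp.exists_conj_le (h : Hyp G) (ht : orderOf t = 2) (S : Sylow 2 G)
    (hS : ∀ s ∈ S, Commute s t) {P : Subgroup G} (hP : IsPGroup 2 ↥P)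
    (hPt : ∀ x ∈ P, Commute x t) :
    ∃ a ∈ oddPart h ht, ∀ x ∈ P, a⁻¹ * x * a ∈ S := by
  obtain ⟨C, hC⟩ : ∃ C, C = Subgroup.centralizer ({t} : Set G) := ⟨_, rfl⟩
  have hmC : ∀ g, g ∈ C ↔ Commute g t := fun g => hC ▸ mem_centralizer_singleton_iff'
  have hSC : (S : Subgroup G) ≤ C := fun s hs => (hmC s).mpr (hS s hs)
  obtain ⟨T, hT⟩ := (hP.comap_subtype (K := C)).exists_le_sylow
  obtain ⟨c, hc⟩ := MulAction.exists_smul_eq ↥C (S.subtype hSC) T
  obtain ⟨a, ha, s, hs, hcas⟩ := h.exists_mul_mem ht S hS ((hmC _).mp c.2)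
  refine ⟨a, ha, fun x hx => ?_⟩
  have hxT : (⟨x, (hmC x).mpr (hPt x hx)⟩ : ↥C) ∈ (T : Subgroup ↥C) := hT hx
  rw [← hc, Sylow.coe_subgroup_smul, Subgroup.mem_pointwise_smul_iff_inv_smul_mem,
    Sylow.coe_subtype, Subgroup.mem_subgroupOf] at hxT
  have hxT' : (c : G)⁻¹ * x * (c : G) ∈ (S : Subgroup G) := by
    simpa [MulAut.conj_apply, mul_assoc] using hxT
  rw [hcas] at hxT'
  have := S.mul_mem (S.mul_mem hs hxT') ((S : Subgroup G).inv_mem hs)
  show a⁻¹ * x * a ∈ (S : Subgroup G)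
  simpa [mul_assoc] using this

theorem Hyp.exists_conj_mem (h : Hyp G) (ht : orderOf t = 2) (S : Sylow 2 G)
    (hS : ∀ s ∈ S, Commute s t) {x : G} (hx : Two x) (hxt : Commute x t) :
    ∃ a ∈ oddPart h ht, a⁻¹ * x * a ∈ S := by
  obtain ⟨k, hk⟩ := hx.orderOf_eq
  obtain ⟨a, ha, hconj⟩ := h.exists_conj_le ht S hS
    (P := Subgroup.zpowers x) (IsPGroup.of_card (n := k) (by rw [Nat.card_zpowers, hk]))
    (fun z hz => by obtain ⟨i, rfl⟩ := hz; exact hxt.zpow_left i)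
  exact ⟨a, ha, hconj x (Subgroup.mem_zpowers x)⟩

/-- An involution of `C(t)` centralising no nontrivial odd element inverts all of them. -/
theorem Hyp.inverts_of_fpf (h : Hyp G) (ht : orderOf t = 2) {s : G} (hs : orderOf s = 2)
    (hst : Commute s t) (hfix : ∀ a ∈ oddPart h ht, Commute s a → a = 1) {a : G}
    (ha : a ∈ oddPart h ht) : s * a * s⁻¹ = a⁻¹ := by
  have hb := h.oddPart_conj_mem ht ha hst
  have hab : Commute a (s * a * s⁻¹) := h.oddPart_comm ht a ha _ hb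
  have hss : s⁻¹ = s := inv_eq_of_mul_eq_one_right (orderOf_eq_two_iff'.mp hs).1
  have hfixed : Commute s (a * (s * a * s⁻¹)) := by
    refine mul_inv_eq_iff_eq_mul.mp ?_
    calc s * (a * (s * a * s⁻¹)) * s⁻¹ = (s * a * s⁻¹) * (s * s * a * (s * s)⁻¹) := by group
      _ = (s * a * s⁻¹) * a := by rw [(orderOf_eq_two_iff'.mp hs).1]; group
      _ = a * (s * a * s⁻¹) := hab.eq.symm
  have := hfix _ (mul_mem ha hb) hfixed
  exact (inv_eq_of_mul_eq_one_right this).symm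

theorem Hyp.commute_or_inverts (h : Hyp G) (ht : orderOf t = 2) {s : G} (hs : orderOf s = 2)
    (hst : Commute s t) :
    (∀ g, Commute g s ↔ Commute g t) ∨ ∀ a ∈ oddPart h ht, s * a * s⁻¹ = a⁻¹ := by
  by_cases hex : ∃ a ∈ oddPart h ht, a ≠ 1 ∧ Commute s a
  · obtain ⟨a, ha, ha1, hsa⟩ := hex
    exact Or.inl (h.commute_iff_of_common ht ha ha1 hs hsa)
  · push Not at hex
    exact Or.inr fun a ha => h.inverts_of_fpf ht hs hst
      (fun b hb hsb => by_contra fun hb1 => hex b hb hb1 hsb) ha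

end CfsgLib.NormCyclicEven16
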