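import Cfsg.Agent.NormCyclicEven16.Basic

/-!
A finite group with all cyclic subgroups normal and all elements of exponent four central is
abelian.
-/

set_option autoImplicit false

namespace CfsgLib.NormCyclicEven16

variable {G : Type*} [Group G]

theorem pow_swap {x y c : G} (hcx : Commute c x) (h : x * y = c * y * x)
    (s : ℕ) : x ^ s * y = c ^ s * y * x ^ s := by
  induction s with
  | zero => simp
  | succ n ih =>
    calc x ^ (n + 1) * y = x * (x ^ n * y) := by rw [pow_succ']; group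
      _ = x * c ^ n * (y * x ^ n) := by rw [ih]; group
      _ = c ^ n * (x * y) * x ^ n := by rw [← (hcx.pow_left n).eq]; group
      _ = c ^ n * (c * y * x) * x ^ n := by rw [h]
      _ = c ^ (n + 1) * y * x ^ (n + 1) := by rw [pow_succ c, pow_succ' x]; group

/-- Powers of a product when the commutator is central. -/
theorem mul_pow_central {a b d : G} (hda : Commute d a) (hdb : Commute d b)
    (h : b * a = d * a * b) (n : ℕ) :
    (a * b) ^ n = d ^ n.choose 2 * a ^ n * b ^ n := by
  induction n with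
  | zero => simp
  | succ n ih =>
    have hswap := pow_swap hdb h n
    calc (a * b) ^ (n + 1) = d ^ n.choose 2 * a ^ n * (b ^ n * a) * b := by
          rw [pow_succ, ih]; group
      _ = d ^ n.choose 2 * (a ^ n * d ^ n) * a * b ^ n * b := by rw [hswap]; group
      _ = d ^ n.choose 2 * d ^ n * (a ^ n * a) * (b ^ n * b) := by
          rw [((hda.pow_pow n n).symm).eq]; group
      _ = d ^ (n + 1).choose 2 * a ^ (n + 1) * b ^ (n + 1) := by
          rw [← pow_add, ← pow_succ, ← pow_succ, Nat.choose_succ_succ', Nat.choose_one_right,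
            add_comm n (n.choose 2)]

/-- The unique subgroup of order `p` of a cyclic group of order `p ^ (m + 1)`. -/
theorem mem_zpowers_pow_of_pow_eq_one [Finite G] {x w : G} {p m : ℕ} (hp : p.Prime)
    (hx : orderOf x = p ^ (m + 1)) (hw : w ∈ Subgroup.zpowers x) (hwp : w ^ p = 1) :
    w ∈ Subgroup.zpowers (x ^ p ^ m) := by
  obtain ⟨i, rfl⟩ := mem_powers_iff_mem_zpowers.mpr hw
  simp only at hwp ⊢
  have h1 : p ^ (m + 1) ∣ i * p := hx ▸ orderOf_dvd_of_pow_eq_one (by rw [pow_mul]; exact hwp)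
  rw [pow_succ] at h1
  obtain ⟨c, rfl⟩ := Nat.dvd_of_mul_dvd_mul_right hp.pos h1
  rw [pow_mul]
  exact Subgroup.npow_mem_zpowers _ _

theorem commute_of_cyclic_normal [Finite G] (K : Subgroup G)
    (hn : ∀ g ∈ K, ∀ x ∈ K, Nm g x)
    (h4 : ∀ x ∈ K, x ^ 4 = 1 → ∀ g ∈ K, Commute g x) :
    ∀ x ∈ K, ∀ y ∈ K, Commute x y := by
  suffices H : ∀ N : ℕ, ∀ x ∈ K, ∀ y ∈ K, orderOf x + orderOf y < N → Commute x y by
    exact fun x hx y hy => H _ x hx y hy (Nat.lt_succ_self _)
  intro N
  induction N with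
  | zero => exact fun x _ y _ h => absurd h (Nat.not_lt_zero _)
  | succ N ih =>
    suffices key : ∀ x ∈ K, ∀ y ∈ K, orderOf y ≤ orderOf x → orderOf x + orderOf y < N + 1 →
        Commute x y by
      intro x hx y hy hlt
      rcases le_total (orderOf y) (orderOf x) with hle | hle
      · exact key x hx y hy hle hlt
      · exact (key y hy x hx hle (by omega)).symm
    intro x hx y hy hle hlt
    by_contra hnc
    obtain ⟨c, hc⟩ : ∃ c, c = y * x * y⁻¹ * x⁻¹ := ⟨_, rfl⟩
    have hcne : c ≠ 1 := fun h1 => hnc (mul_inv_eq_iff_eq_mul.mp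
      (mul_inv_eq_one.mp (hc.symm.trans h1))).symm
    have hcx : c ∈ Subgroup.zpowers x :=
      hc ▸ mul_mem (hn y hy x hx) (inv_mem (Subgroup.mem_zpowers x))
    have hcy : c ∈ Subgroup.zpowers y := by
      have := mul_mem (Subgroup.mem_zpowers y) (hn x hx y⁻¹ (inv_mem hy) |> fun h => by
        unfold Nm at h; rwa [Subgroup.zpowers_inv] at h)
      simpa [hc, mul_assoc] using this
    have hcomx : Commute c x := by
      obtain ⟨i, hi⟩ := hcx; rw [← hi]; exact (Commute.self_zpow x i).symm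
    have hcomy : Commute c y := by
      obtain ⟨i, hi⟩ := hcy; rw [← hi]; exact (Commute.self_zpow y i).symm
    have hyx : y * x = c * x * y := by rw [hc]; group
    have hxy : x * y = c⁻¹ * y * x := by rw [hc]; group
    have hsmall : ∀ z : G, z ≠ 1 → ∀ q : ℕ, q.Prime → q ∣ orderOf z →
        orderOf (z ^ q) < orderOf z := by
      intro z _ q hq hqz
      rw [orderOf_pow_of_dvd hq.ne_zero hqz]
      exact Nat.div_lt_self (orderOf_pos z) hq.one_lt
    have hx1 : x ≠ 1 := fun h1 => hnc (h1 ▸ Commute.one_left y)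
    have hy1 : y ≠ 1 := fun h1 => hnc (h1 ▸ Commute.one_right x)
    have hxq : ∀ q : ℕ, q.Prime → q ∣ orderOf x → orderOf c = q := by
      intro q hq hqx
      have hs := hsmall x hx1 q hq hqx
      have hcom : Commute (x ^ q) y := ih _ (pow_mem hx q) _ hy (by omega)
      have h1 := pow_swap (c := c⁻¹) hcomx.inv_left hxy q
      rw [hcom.eq, mul_assoc, eq_comm, mul_eq_right, inv_pow, inv_eq_one] at h1
      haveI := Fact.mk hq
      exact orderOf_eq_prime h1 hcne
    have hyq : ∀ q : ℕ, q.Prime → q ∣ orderOf y → orderOf c = q := by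
      intro q hq hqy
      have hs := hsmall y hy1 q hq hqy
      have hcom : Commute x (y ^ q) := ih _ hx _ (pow_mem hy q) (by omega)
      have h1 := pow_swap hcomy hyx q
      rw [← hcom.eq, mul_assoc, eq_comm, mul_eq_right] at h1
      haveI := Fact.mk hq
      exact orderOf_eq_prime h1 hcne
    obtain ⟨p, hp, hpx⟩ := Nat.exists_prime_and_dvd
      (fun h => hx1 (orderOf_eq_one_iff.mp h) : orderOf x ≠ 1)
    have hcp : orderOf c = p := hxq p hp hpx
    obtain ⟨m, hm⟩ : ∃ m, orderOf x = p ^ m := ⟨_, Nat.eq_prime_pow_of_unique_prime_dvd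
      (orderOf_pos x).ne' fun hq hqd => ((hxq _ hq hqd).symm.trans hcp)⟩
    obtain ⟨n, hn'⟩ : ∃ n, orderOf y = p ^ n := ⟨_, Nat.eq_prime_pow_of_unique_prime_dvd
      (orderOf_pos y).ne' fun hq hqd => ((hyq _ hq hqd).symm.trans hcp)⟩
    have hnm : n ≤ m := by
      rw [hm, hn'] at hle
      exact (Nat.pow_le_pow_iff_right hp.one_lt).mp hle
    obtain ⟨n, rfl⟩ : ∃ n', n = n' + 1 := by
      refine ⟨n - 1, ?_⟩
      rcases n with - | n
      · exact absurd (orderOf_eq_one_iff.mp (by rw [hn', pow_zero])) hy1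
      · rfl
    obtain ⟨m, rfl⟩ : ∃ m', m = m' + 1 := ⟨m - 1, by omega⟩
    have hcp1 : c ^ p = 1 := hcp ▸ pow_orderOf_eq_one c
    have hchoose : p ∣ (p ^ n).choose 2 := by
      rcases n with - | n
      · exfalso
        have hmem := mem_zpowers_pow_of_pow_eq_one hp hn' hcy hcp1
        rw [pow_zero, pow_one] at hmem
        have heq : Subgroup.zpowers c = Subgroup.zpowers y :=
          Subgroup.eq_of_le_of_card_ge (Subgroup.zpowers_le.mpr hmem)
            (by rw [Nat.card_zpowers, Nat.card_zpowers, hcp, hn', zero_add, pow_one])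
        obtain ⟨i, hi⟩ : y ∈ Subgroup.zpowers c := heq ▸ Subgroup.mem_zpowers y
        exact hnc (hi ▸ (hcomx.zpow_left i).symm)
      rcases eq_or_ne p 2 with rfl | hp2
      · rcases n with - | n
        · exact absurd (h4 y hy (by
            rw [show (4 : ℕ) = 2 ^ (0 + 1 + 1) by norm_num, ← hn', pow_orderOf_eq_one]) x hx) hnc
        · refine ⟨2 ^ n * (2 ^ (n + 2) - 1), ?_⟩
          rw [Nat.choose_two_right, show (2 : ℕ) ^ (n + 1 + 1) = 2 * (2 * 2 ^ n) by ring,
            mul_assoc 2, Nat.mul_div_cancel_left _ two_pos]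
          ring
      · rw [Nat.choose_two_right]
        have h2 : Nat.Coprime p 2 := (Nat.coprime_primes hp Nat.prime_two).mpr hp2
        refine h2.dvd_of_dvd_mul_right ?_
        rw [Nat.div_mul_cancel (even_iff_two_dvd.mp (Nat.even_mul_pred_self _))]
        exact Dvd.dvd.mul_right (dvd_pow_self p (Nat.succ_ne_zero n)) _
    have hyN : (y ^ p ^ n) ^ p = 1 := by
      rw [← pow_mul, ← pow_succ, ← hn', pow_orderOf_eq_one]
    have hcg : Subgroup.zpowers c = Subgroup.zpowers (y ^ p ^ n) := by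
      refine Subgroup.eq_of_le_of_card_ge
        (Subgroup.zpowers_le.mpr (mem_zpowers_pow_of_pow_eq_one hp hn' hcy hcp1)) ?_
      rw [Nat.card_zpowers, Nat.card_zpowers, hcp]
      exact Nat.le_of_dvd hp.pos (orderOf_dvd_of_pow_eq_one hyN)
    have hyc : y ^ p ^ n ∈ Subgroup.zpowers (x ^ p ^ m) := by
      have : y ^ p ^ n ∈ Subgroup.zpowers c := hcg ▸ Subgroup.mem_zpowers _
      exact Subgroup.zpowers_le.mpr (mem_zpowers_pow_of_pow_eq_one hp hm hcx hcp1) this
    obtain ⟨k, hk⟩ := mem_powers_iff_mem_zpowers.mpr (inv_mem hyc)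
    simp only at hk
    obtain ⟨s, hs⟩ : ∃ s, s = p ^ (m - n) * k := ⟨_, rfl⟩
    obtain ⟨u, hu⟩ : ∃ u, u = x ^ s := ⟨_, rfl⟩
    have huN : u ^ p ^ n = (y ^ p ^ n)⁻¹ := by
      rw [← hk, hu, hs, ← pow_mul, ← pow_mul, mul_right_comm, ← pow_add,
        Nat.sub_add_cancel (by omega : n ≤ m)]
    have hsw : u * y = c⁻¹ ^ s * y * u := hu ▸ pow_swap hcomx.inv_left hxy s
    have hpow := mul_pow_central (hcomy.inv_left.pow_left s)
      (hu ▸ (hcomx.inv_left.pow_pow s s)) hsw (p ^ n)
    have hd : (c⁻¹ ^ s) ^ (p ^ n).choose 2 = 1 := by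
      obtain ⟨e, he⟩ := hchoose
      rw [← pow_mul, he, ← mul_assoc, mul_comm s p, mul_assoc, pow_mul, inv_pow, hcp1, inv_one,
        one_pow]
    rw [hd, one_mul, huN, mul_inv_cancel] at hpow
    have hlt' : orderOf (y * u) < orderOf y := by
      have h1 := Nat.le_of_dvd (pow_pos hp.pos n) (orderOf_dvd_of_pow_eq_one hpow)
      rw [hn']
      exact lt_of_le_of_lt h1 (Nat.pow_lt_pow_right hp.one_lt (Nat.lt_succ_self n))
    have hcom : Commute x (y * u) :=
      ih x hx _ (mul_mem hy (hu ▸ pow_mem hx s)) (by omega)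
    have hxu : Commute x u := hu ▸ Commute.self_pow x s
    have := hcom.mul_right hxu.inv_right
    rw [mul_inv_cancel_right] at this
    exact hnc this

end CfsgLib.NormCyclicEven16
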