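import Cfsg.Agent.NormCyclicEven16.Centralizer
import Cfsg.Agent.AutPSL.Classes

/-!
Almost simple groups with socle `PSL₂(q)` satisfying the normaliser hypothesis contain no field
automorphism.
-/

set_option autoImplicit false

namespace CfsgLib.NormCyclicEven16

open Matrix CfsgLib.AutPSL
open scoped MatrixGroups

variable {F : Type*} [Field F]

local notation "PSL₂" => Matrix.ProjectiveSpecialLinearGroup (Fin 2) F
local notation "GL₂" => GL (Fin 2) F

theorem scalar_of_conjPSL_eq [Fintype F] {a b : GL₂}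
    (h : (conjPSL a : MulAut PSL₂) = conjPSL b) :
    ∃ c : Fˣ, ∀ i j, a.1 i j = (c : F) * b.1 i j := by
  obtain ⟨c, hc⟩ := exists_scalar_of_conj_eq_one le_rfl (g := a * b⁻¹)
    (by rw [conjPSL_mul, conjPSL_inv, h, mul_inv_cancel])
  refine ⟨c, fun i j => ?_⟩
  rw [mul_inv_eq_iff_eq_mul] at hc
  rw [hc]
  simp [Matrix.GeneralLinearGroup.coe_scalar, Matrix.scalar]

theorem conjPSL_eq_of_smul {a b : GL₂} (c : Fˣ) (h : ∀ i j, a.1 i j = (c : F) * b.1 i j) :
    (conjPSL a : MulAut PSL₂) = conjPSL b := by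
  have : a = Matrix.GeneralLinearGroup.scalar (Fin 2) c * b := by
    ext i j
    rw [h]
    simp [Matrix.GeneralLinearGroup.coe_scalar, Matrix.scalar]
  rw [this, conjPSL_scalar_mul]

/-- The special linear matrix with the given entries. -/
def slMk (a b c d : F) (h : a * d - b * c = 1) : GL₂ :=
  SpecialLinearGroup.toGL ⟨!![a, b; c, d], by rw [det_fin_two_of]; exact h⟩

theorem slMk_val (a b c d : F) (h : a * d - b * c = 1) : (slMk a b c d h).1 = !![a, b; c, d] := rfl

theorem conjPSL_slMk_mem (a b c d : F) (h : a * d - b * c = 1) :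
    (conjPSL (slMk a b c d h) : MulAut PSL₂) ∈ Cfsg.Inn PSL₂ :=
  mem_inn_iff.mpr ⟨_, rfl⟩

/-- Conjugation by an element with square determinant is inner. -/
theorem conjPSL_mem_inn_of_square (g : GL₂) (c : Fˣ)
    (h : Matrix.GeneralLinearGroup.det g = c ^ 2) : (conjPSL g : MulAut PSL₂) ∈ Cfsg.Inn PSL₂ := by
  have hd : Matrix.GeneralLinearGroup.det (Matrix.GeneralLinearGroup.scalar (Fin 2) c⁻¹ * g) = 1 := by
    rw [map_mul, h]
    refine Units.ext ?_
    simp
  refine mem_inn_iff.mpr ⟨⟨_, congrArg Units.val hd⟩, ?_⟩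
  rw [show SpecialLinearGroup.toGL ⟨_, congrArg Units.val hd⟩ =
    Matrix.GeneralLinearGroup.scalar (Fin 2) c⁻¹ * g from Units.ext rfl, conjPSL_scalar_mul]

/-- The diagonal element `diag(a, b)`. -/
def dia (a b : Fˣ) : GL₂ := diagGL ![a, b]

theorem dia_mul (a b a' b' : Fˣ) : dia a b * dia a' b' = dia (a * a') (b * b') := by
  ext i j
  fin_cases i <;> fin_cases j <;> simp [dia, diagGL]

theorem map_dia (σ : F ≃+* F) (a b : Fˣ) :
    Matrix.GeneralLinearGroup.map (σ : F →+* F) (dia a b) =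
      dia (Units.map (σ : F →* F) a) (Units.map (σ : F →* F) b) := by
  ext i j
  fin_cases i <;> fin_cases j <;> simp [dia, diagGL]

variable [Fintype F]

theorem conjPSL_dia_mul_map_pow (σ : RingAut F) (hσ : σ * σ = 1) (ν : Fˣ) (j : ℕ) :
    ((conjPSL (dia ν 1) * mapPSL σ : MulAut PSL₂)) ^ (2 * j) =
      conjPSL (dia ((ν * Units.map (σ : F →* F) ν) ^ j) 1) := by
  induction j with
  | zero =>
    rw [Nat.mul_zero, pow_zero, pow_zero,
      show dia (1 : Fˣ) 1 = (1 : GL₂) by ext i j; fin_cases i <;> fin_cases j <;> simp [dia, diagGL]]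
    exact conjPSL_one.symm
  | succ j ih =>
    rw [Nat.mul_succ, pow_add, ih, pow_two]
    have h2 : (conjPSL (dia ν 1) * mapPSL σ : MulAut PSL₂) * (conjPSL (dia ν 1) * mapPSL σ) =
        conjPSL (dia (ν * Units.map (σ : F →* F) ν) 1) := by
      rw [mul_assoc, ← mul_assoc (mapPSL σ), mapPSL_mul_conjPSL, mul_assoc, ← mapPSL_mul, hσ,
        mapPSL_one, mul_one, ← conjPSL_mul, map_dia, dia_mul, map_one, one_mul]
    rw [h2, ← conjPSL_mul, dia_mul, one_mul, ← pow_succ]

/-- In an involutory field automorphism's fixed field there is an element other than `0`, `1`. -/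
theorem exists_fixed_ne [CharP F 2] (τ : RingAut F) (hτ : τ * τ = 1) (h4 : 4 < Fintype.card F) :
    ∃ l : F, τ l = l ∧ l ≠ 0 ∧ l ≠ 1 := by
  by_contra hcon
  push Not at hcon
  have hfix : ∀ l : F, τ l = l → l = 0 ∨ l = 1 := fun l hl =>
    or_iff_not_imp_left.mpr (hcon l hl)
  have hττ : ∀ c : F, τ (τ c) = c := fun c => by
    have := RingEquiv.congr_fun hτ c
    exact this
  classical
  obtain ⟨ν, hν⟩ := IsCyclic.exists_generator (α := Fˣ)
  have hsum := hfix ((ν : F) + τ ν) (by rw [map_add, hττ, add_comm])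
  have hprod := hfix ((ν : F) * τ ν) (by rw [map_mul, hττ, mul_comm])
  have hneg : ∀ c : F, -c = c := fun c => CharTwo.neg_eq c
  have h3 : (ν : F) ^ 3 = 1 := by
    have hp1 : (ν : F) * τ ν = 1 := hprod.resolve_left (mul_ne_zero ν.ne_zero (by simp))
    rcases hsum with h0 | h1
    · have e : τ (ν : F) = ν := by rw [eq_neg_of_add_eq_zero_right h0, hneg]
      rcases hfix _ e with h' | h'
      · exact absurd h' ν.ne_zero
      · rw [h', one_pow]
    · have e : τ (ν : F) = 1 + ν := by rw [← h1]; ring_nf; rw [CharTwo.two_eq_zero]; ring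
      rw [e] at hp1
      have h2 : (ν : F) ^ 2 = 1 + ν := by
        have h' : (ν : F) ^ 2 = 1 - ν := by linear_combination hp1
        rw [h', sub_eq_add_neg, hneg]
      have : (ν : F) ^ 3 = ν + (1 + ν) := by
        rw [pow_succ, h2, add_mul, one_mul, ← pow_two, h2]
      rw [this, show (ν : F) + (1 + ν) = 1 + (ν + ν) by ring, CharTwo.add_self_eq_zero, add_zero]
  have hord : orderOf ν ∣ 3 := orderOf_dvd_of_pow_eq_one (Units.ext (by simpa using h3))
  rw [orderOf_eq_card_of_forall_mem_zpowers hν, Nat.card_units, Nat.card_eq_fintype_card] at hord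
  have := Nat.le_of_dvd (by norm_num) hord
  omega

variable {H : Subgroup (MulAut (Matrix.ProjectiveSpecialLinearGroup (Fin 2) F))}

theorem commute_lift {α β : MulAut PSL₂} (hα : α ∈ H) (hβ : β ∈ H) :
    Commute (⟨α, hα⟩ : H) ⟨β, hβ⟩ ↔ Commute α β :=
  ⟨fun h => congrArg Subtype.val h, fun h => Subtype.ext h⟩

/-- An element commuting with an involution and an odd element, or of even order with involution
commuting with two odd elements, forces them to commute. -/
theorem commute_of_field (h : Hyp ↥H) {x t a : MulAut PSL₂} (hx : x ∈ H) (ht : t ∈ H) (ha : a ∈ H)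
    (hxo : Odd (orderOf x)) (hx1 : x ≠ 1) (ht2 : orderOf t = 2)
    (hxt : Commute x t) (hxa : Commute x a) : Commute a t :=
  (commute_lift ha ht).mp (h.commute_of_commute_odd (t := ⟨t, ht⟩) (a := ⟨x, hx⟩)
    (by rw [Subgroup.orderOf_mk]; exact ht2) ((commute_lift hx ht).mpr hxt)
    (by rw [Subgroup.orderOf_mk]; exact hxo) (fun h0 => hx1 (congrArg Subtype.val h0))
    ((commute_lift ha hx).mpr hxa.symm))

theorem commute_odd_of_involution (h : Hyp ↥H) {τ u l : MulAut PSL₂} (hτ : τ ∈ H) (hu : u ∈ H)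
    (hl : l ∈ H) (hτ2 : orderOf τ = 2) (huo : Odd (orderOf u)) (hlo : Odd (orderOf l))
    (huτ : Commute u τ) (hlτ : Commute l τ) : Commute u l :=
  (commute_lift hu hl).mp (h.oddPart_comm (t := ⟨τ, hτ⟩) (by rw [Subgroup.orderOf_mk]; exact hτ2)
    ⟨u, hu⟩ ⟨(commute_lift hu hτ).mpr huτ, by rw [Subgroup.orderOf_mk]; exact huo⟩
    ⟨l, hl⟩ ⟨(commute_lift hl hτ).mpr hlτ, by rw [Subgroup.orderOf_mk]; exact hlo⟩)

theorem commute_map_of_fixed (σ : F ≃+* F) (g : GL₂) (hg : ∀ i j, σ (g.1 i j) = g.1 i j) :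
    Commute (mapPSL σ : MulAut PSL₂) (conjPSL g) := by
  show mapPSL σ * conjPSL g = conjPSL g * mapPSL σ
  rw [mapPSL_mul_conjPSL]
  congr 2
  ext i j
  exact hg i j

/-- A field automorphism in such a group is trivial. -/
theorem field_eq_one (h : Hyp ↥H) (hInn : Cfsg.Inn PSL₂ ≤ H) (h4 : 3 < Fintype.card F)
    (hne4 : Fintype.card F ≠ 4) (σ : RingAut F) (hσ : (mapPSL σ : MulAut PSL₂) ∈ H) : σ = 1 := by
  by_contra hσ1
  haveI : Finite (RingAut F) :=
    Finite.of_injective (fun e : RingAut F => (e : F → F)) DFunLike.coe_injective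
  rcases Nat.even_or_odd (orderOf σ) with hev | hodd
  · -- an involutory field automorphism
    obtain ⟨m, hm⟩ := hev
    obtain ⟨τ, hτdef⟩ : ∃ τ, τ = σ ^ m := ⟨_, rfl⟩
    have hτ : (mapPSL τ : MulAut PSL₂) ∈ H := by
      have := pow_mem hσ m
      rwa [show (mapPSL σ : MulAut PSL₂) ^ m = mapPSL τ from
        hτdef ▸ (map_pow (fieldHom (F := F) (n := 2)) σ m).symm] at this
    have hm0 : m ≠ 0 := by have := orderOf_pos σ; omega
    have hττ : τ * τ = 1 := by rw [hτdef, ← pow_add, ← hm, pow_orderOf_eq_one]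
    have hτ2 : orderOf (mapPSL τ : MulAut PSL₂) = 2 := by
      rw [orderOf_mapPSL le_rfl, orderOf_eq_two_iff']
      refine ⟨hττ, fun h0 => ?_⟩
      have := Nat.le_of_dvd (Nat.pos_of_ne_zero hm0) (orderOf_dvd_of_pow_eq_one (hτdef ▸ h0))
      omega
    obtain ⟨p, hp⟩ := CharP.exists F
    haveI := hp
    haveI : Fact p.Prime := ⟨CharP.char_is_prime F p⟩
    rcases eq_or_ne p 2 with rfl | hp2
    · obtain ⟨l, hl, hl0, hl1⟩ := exists_fixed_ne τ hττ (by omega)
      obtain ⟨L, hL⟩ : ∃ L : Fˣ, L = Units.mk0 l hl0 := ⟨_, rfl⟩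
      obtain ⟨d, hd⟩ : ∃ d : GL₂, d = dia L 1 := ⟨_, rfl⟩
      obtain ⟨u, hu⟩ : ∃ u : GL₂, u = slMk 1 1 0 1 (by simp) := ⟨_, rfl⟩
      have hmem : ∀ g : GL₂, (conjPSL g : MulAut PSL₂) ∈ H := fun g => by
        obtain ⟨c, hc⟩ := FiniteField.isSquare_of_char_two
          (ringChar.eq F 2) ((Matrix.GeneralLinearGroup.det g : Fˣ) : F)
        have hc0 : c ≠ 0 := fun h0 => (Matrix.GeneralLinearGroup.det g).ne_zero (by rw [hc, h0, mul_zero])
        exact hInn (conjPSL_mem_inn_of_square g (Units.mk0 c hc0)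
          (Units.ext (by rw [hc, pow_two]; rfl)))
      have hoL : Odd (orderOf L) := by
        refine Odd.of_dvd_nat ?_ (orderOf_dvd_natCard L)
        rw [Nat.card_units, Nat.card_eq_fintype_card]
        obtain ⟨n, -, hn⟩ := FiniteField.card F 2
        rw [hn]
        exact Nat.Even.sub_odd (Nat.one_le_pow _ _ (by norm_num))
          (Nat.even_pow.mpr ⟨even_two, n.ne_zero⟩) odd_one
      have hdpow : ∀ k : ℕ, d ^ k = dia (L ^ k) 1 := fun k => by
        induction k with
        | zero => ext i j; fin_cases i <;> fin_cases j <;> simp [dia, diagGL]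
        | succ k ih => rw [pow_succ, ih, hd, dia_mul, one_mul, ← pow_succ]
      have hdo : Odd (orderOf (conjPSL d : MulAut PSL₂)) := by
        refine hoL.of_dvd_nat (orderOf_dvd_of_pow_eq_one ?_)
        show (conjHom d : MulAut PSL₂) ^ orderOf L = 1
        rw [← map_pow, hdpow, pow_orderOf_eq_one,
          show dia (1 : Fˣ) 1 = (1 : GL₂) by ext i j; fin_cases i <;> fin_cases j <;> simp [dia, diagGL],
          map_one]
      have hd'o : Odd (orderOf (conjPSL (u * d * u⁻¹) : MulAut PSL₂)) := by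
        rw [conjPSL_mul, conjPSL_mul, conjPSL_inv, orderOf_conj']
        exact hdo
      have hfd : Commute (mapPSL τ : MulAut PSL₂) (conjPSL d) := by
        refine commute_map_of_fixed τ d fun i j => ?_
        fin_cases i <;> fin_cases j <;> simp [hd, dia, diagGL, hL, hl]
      have hfu : Commute (mapPSL τ : MulAut PSL₂) (conjPSL u) := by
        refine commute_map_of_fixed τ u fun i j => ?_
        fin_cases i <;> fin_cases j <;> simp [hu, slMk_val]
      have hfd' : Commute (mapPSL τ : MulAut PSL₂) (conjPSL (u * d * u⁻¹)) := by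
        rw [conjPSL_mul, conjPSL_mul, conjPSL_inv]
        exact (hfu.mul_right hfd).mul_right hfu.inv_right
      have hcom := commute_odd_of_involution h hτ (hmem d) (hmem (u * d * u⁻¹)) hτ2 hdo hd'o
        hfd.symm hfd'.symm
      obtain ⟨c, hc⟩ := scalar_of_conjPSL_eq (a := d * (u * d * u⁻¹)) (b := (u * d * u⁻¹) * d)
        (by rw [conjPSL_mul d, conjPSL_mul (u * d * u⁻¹)]; exact hcom.eq)
      have hdv : d.1 = !![l, 0; 0, 1] := by
        ext i j
        fin_cases i <;> fin_cases j <;> simp [hd, hL, dia, diagGL]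
      have hconj : (u * d * u⁻¹).1 = !![l, 1 - l; 0, 1] := by
        have hui : u⁻¹ = slMk 1 (-1) 0 1 (by simp) := by
          refine inv_eq_of_mul_eq_one_right (Units.ext ?_)
          rw [Units.val_mul, hu, slMk_val, slMk_val]
          ext i j; fin_cases i <;> fin_cases j <;> simp [Matrix.mul_apply, Fin.sum_univ_two]
        rw [hui, Units.val_mul, Units.val_mul, hdv, hu, slMk_val, slMk_val]
        ext i j
        fin_cases i <;> fin_cases j <;>
          simp [Matrix.mul_apply, Fin.sum_univ_two] <;> ring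
      have h11 := hc 1 1
      have h01 := hc 0 1
      simp [Units.val_mul, hconj, hdv, Matrix.mul_apply, Fin.sum_univ_two] at h11 h01
      rw [← h11] at h01
      rcases h01 with e | e
      · exact hl1 e
      · exact hl1 (sub_eq_zero.mp e).symm
    · obtain ⟨u, hu⟩ : ∃ u : GL₂, u = slMk 1 1 0 1 (by simp) := ⟨_, rfl⟩
      obtain ⟨l, hl⟩ : ∃ l : GL₂, l = slMk 1 0 1 1 (by simp) := ⟨_, rfl⟩
      have hpodd : Odd p := (Fact.out : p.Prime).odd_of_ne_two hp2
      have hupow : ∀ k : ℕ, (u ^ k).1 = !![1, (k : F); 0, 1] := fun k => by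
        induction k with
        | zero => ext i j; fin_cases i <;> fin_cases j <;> simp
        | succ k ih =>
          rw [pow_succ, Units.val_mul, ih, hu, slMk_val]
          ext i j; fin_cases i <;> fin_cases j <;>
            simp [Matrix.mul_apply, Fin.sum_univ_two, add_comm]
      have hlpow : ∀ k : ℕ, (l ^ k).1 = !![1, 0; (k : F), 1] := fun k => by
        induction k with
        | zero => ext i j; fin_cases i <;> fin_cases j <;> simp
        | succ k ih =>
          rw [pow_succ, Units.val_mul, ih, hl, slMk_val]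
          ext i j; fin_cases i <;> fin_cases j <;>
            simp [Matrix.mul_apply, Fin.sum_univ_two, add_comm]
      have hodd : ∀ g : GL₂, g ^ p = 1 → Odd (orderOf (conjPSL g : MulAut PSL₂)) := fun g hg =>
        hpodd.of_dvd_nat (orderOf_dvd_of_pow_eq_one (by
          show (conjHom g : MulAut PSL₂) ^ p = 1
          rw [← map_pow, hg, map_one]))
      have huo := hodd u (Units.ext (by
        rw [hupow, CharP.cast_eq_zero]; ext i j; fin_cases i <;> fin_cases j <;> simp))
      have hlo := hodd l (Units.ext (by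
        rw [hlpow, CharP.cast_eq_zero]; ext i j; fin_cases i <;> fin_cases j <;> simp))
      have hfu : Commute (mapPSL τ : MulAut PSL₂) (conjPSL u) := by
        refine commute_map_of_fixed τ u fun i j => ?_
        fin_cases i <;> fin_cases j <;> simp [hu, slMk_val]
      have hfl : Commute (mapPSL τ : MulAut PSL₂) (conjPSL l) := by
        refine commute_map_of_fixed τ l fun i j => ?_
        fin_cases i <;> fin_cases j <;> simp [hl, slMk_val]
      have hcom := commute_odd_of_involution h hτ (hInn (hu ▸ conjPSL_slMk_mem _ _ _ _ _))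
        (hInn (hl ▸ conjPSL_slMk_mem _ _ _ _ _)) hτ2 huo hlo hfu.symm hfl.symm
      obtain ⟨c, hc⟩ := scalar_of_conjPSL_eq (a := u * l) (b := l * u)
        (by rw [conjPSL_mul, conjPSL_mul]; exact hcom.eq)
      have h01 := hc 0 1
      have h00 := hc 0 0
      simp [hu, hl, slMk_val, Matrix.mul_apply, Fin.sum_univ_two] at h01 h00
      rw [← h01] at h00
      have h10 : (1 : F) = 0 := by linear_combination h00
      exact one_ne_zero h10
  · obtain ⟨w, hw⟩ : ∃ w : GL₂, w = slMk 0 1 (-1) 0 (by simp) := ⟨_, rfl⟩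
    obtain ⟨a, ha⟩ : ∃ a : GL₂, a = slMk 0 (-1) 1 (-1) (by simp) := ⟨_, rfl⟩
    have hw2 : orderOf (conjPSL w : MulAut PSL₂) = 2 := by
      rw [orderOf_eq_two_iff']
      refine ⟨?_, fun h0 => ?_⟩
      · rw [← conjPSL_mul, ← conjPSL_one]
        refine conjPSL_eq_of_smul (-1) fun i j => ?_
        fin_cases i <;> fin_cases j <;> simp [hw, slMk_val, Matrix.mul_apply, Fin.sum_univ_two]
      · obtain ⟨c, hc⟩ := scalar_of_conjPSL_eq (a := w) (b := 1) (h0.trans conjPSL_one.symm)
        have := hc 0 1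
        simp [hw, slMk_val] at this
    have hfw : Commute (mapPSL σ : MulAut PSL₂) (conjPSL w) := by
      refine commute_map_of_fixed σ w fun i j => ?_
      fin_cases i <;> fin_cases j <;> simp [hw, slMk_val]
    have hfa : Commute (mapPSL σ : MulAut PSL₂) (conjPSL a) := by
      refine commute_map_of_fixed σ a fun i j => ?_
      fin_cases i <;> fin_cases j <;> simp [ha, slMk_val]
    have hcom := commute_of_field h hσ (hInn (hw ▸ conjPSL_slMk_mem _ _ _ _ _))
      (hInn (ha ▸ conjPSL_slMk_mem _ _ _ _ _)) (by rw [orderOf_mapPSL le_rfl]; exact hodd)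
      (fun h0 => hσ1 (mapPSL_injective le_rfl (h0.trans mapPSL_one.symm))) hw2 hfw hfa
    obtain ⟨c, hc⟩ := scalar_of_conjPSL_eq (a := a * w) (b := w * a)
      (by rw [conjPSL_mul, conjPSL_mul]; exact hcom.eq)
    have h01 := hc 0 1
    have h00 := hc 0 0
    simp [ha, hw, slMk_val, Matrix.mul_apply, Fin.sum_univ_two] at h01 h00

/-- Such a group consists of inner-diagonal automorphisms. -/
theorem le_diagGroup (h : Hyp ↥H) (hInn : Cfsg.Inn PSL₂ ≤ H) (h4 : 3 < Fintype.card F)
    (hne4 : Fintype.card F ≠ 4) : H ≤ diagGroup := by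
  intro β hβ
  obtain ⟨g, σ, rfl⟩ := exists_decomposition_two β
  have hβ' : (conjPSL g * mapPSL σ : MulAut PSL₂) ∈ H := hβ
  suffices hσ : σ = 1 by
    rw [hσ, map_one, mul_one]
    exact ⟨g, rfl⟩
  obtain ⟨ν, hν⟩ := IsCyclic.exists_generator (α := Fˣ)
  have hsq : ∀ u : Fˣ, (∃ c : Fˣ, u = c ^ 2) ∨ ∃ c : Fˣ, u = ν * c ^ 2 := by
    intro u
    obtain ⟨i, rfl⟩ := mem_powers_iff_mem_zpowers.mpr (hν u)
    rcases Nat.even_or_odd i with ⟨j, rfl⟩ | ⟨j, rfl⟩
    · exact Or.inl ⟨ν ^ j, by rw [← pow_mul, Nat.mul_two]⟩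
    · exact Or.inr ⟨ν ^ j, by show ν ^ (2 * j + 1) = _; rw [← pow_mul, pow_succ', mul_comm j 2]⟩
  rcases hsq (Matrix.GeneralLinearGroup.det g) with ⟨c, hc⟩ | ⟨c, hc⟩
  · refine field_eq_one h hInn h4 hne4 σ ?_
    have := mul_mem (inv_mem (hInn (conjPSL_mem_inn_of_square g c hc))) hβ'
    rwa [inv_mul_cancel_left] at this
  -- `conjPSL (dia ν 1) * mapPSL σ` lies in `H`
  have hx : (conjPSL (dia ν 1) * mapPSL σ : MulAut PSL₂) ∈ H := by
    have hdet : Matrix.GeneralLinearGroup.det (dia ν 1 * g⁻¹) = (c⁻¹) ^ 2 := by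
      have hdd : Matrix.GeneralLinearGroup.det (dia ν 1) = ν := by
        refine Units.ext ?_
        simp [dia, diagGL]
      rw [map_mul, map_inv, hdd, hc, inv_pow, _root_.mul_inv_rev, mul_comm ν, mul_assoc, inv_mul_cancel,
        mul_one]
    have := mul_mem (hInn (conjPSL_mem_inn_of_square _ _ hdet)) hβ'
    rwa [conjPSL_mul, conjPSL_inv, mul_assoc, inv_mul_cancel_left] at this
  by_contra hσ1
  have hσσ : σ * σ = 1 := by
    have hx2 := mul_mem hx hx
    rw [mul_assoc, ← mul_assoc (mapPSL σ), mapPSL_mul_conjPSL, mul_assoc, ← mapPSL_mul,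
      ← mul_assoc, ← conjPSL_mul, map_dia, dia_mul, map_one, one_mul] at hx2
    refine field_eq_one h hInn h4 hne4 _ ?_
    have hsqdet : ∃ c' : Fˣ, Matrix.GeneralLinearGroup.det
        (dia (ν * Units.map (σ : F →* F) ν) 1) = c' ^ 2 := by
      have hdd : Matrix.GeneralLinearGroup.det (dia (ν * Units.map (σ : F →* F) ν) 1) =
          ν * Units.map (σ : F →* F) ν := by
        refine Units.ext ?_
        simp [dia, diagGL]
      rw [hdd]
      rcases hsq (Units.map (σ : F →* F) ν) with ⟨c', hc'⟩ | ⟨c', hc'⟩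
      · -- then `ν` itself is a square
        refine ⟨Units.map (σ⁻¹ : RingAut F).toMonoidHom c' * c', ?_⟩
        have e : ν = (Units.map (σ⁻¹ : RingAut F).toMonoidHom c') ^ 2 := by
          rw [← map_pow, ← hc']
          exact Units.ext (σ.symm_apply_apply ν).symm
        rw [hc', mul_pow, ← e]
      · exact ⟨ν * c', by rw [hc', mul_pow, pow_two ν, mul_assoc]⟩
    obtain ⟨c', hc'⟩ := hsqdet
    have := mul_mem (inv_mem (hInn (conjPSL_mem_inn_of_square _ _ hc'))) hx2
    rwa [inv_mul_cancel_left] at this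
  obtain ⟨N, hN⟩ : ∃ N, N = ν * Units.map (σ : F →* F) ν := ⟨_, rfl⟩
  have hσν : Units.map (σ : F →* F) ν ≠ ν := by
    intro h0
    refine hσ1 (RingEquiv.ext fun z => ?_)
    rcases eq_or_ne z 0 with rfl | hz
    · simp
    obtain ⟨i, hi⟩ := hν (Units.mk0 z hz)
    have h1 : Units.map (σ : F →* F) (Units.mk0 z hz) = Units.mk0 z hz := by
      rw [← hi]
      show Units.map (σ : F →* F) (ν ^ i) = ν ^ i
      rw [map_zpow, h0]
    exact congrArg Units.val h1
  obtain ⟨x, hxdef⟩ : ∃ x : MulAut PSL₂, x = conjPSL (dia ν 1) * mapPSL σ := ⟨_, rfl⟩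
  rw [← hxdef] at hx
  have hxpow : ∀ j, x ^ (2 * j) = conjPSL (dia (N ^ j) 1) := fun j =>
    hxdef ▸ hN ▸ conjPSL_dia_mul_map_pow σ hσσ ν j
  have huniq : ∀ g₁ g₂ : GL₂, (conjPSL g₁ * mapPSL σ : MulAut PSL₂) ≠ conjPSL g₂ := by
    intro g₁ g₂ h0
    refine hσ1 (eq_one_of_conj_map_eq_one le_rfl (g := g₂⁻¹ * g₁) ?_).2
    rw [conjPSL_mul, conjPSL_inv, mul_assoc, h0, inv_mul_cancel]
  have hxodd : ∀ j, x ^ (2 * j + 1) = conjPSL (dia (N ^ j * ν) 1) * mapPSL σ := fun j => by
    rw [pow_succ, hxpow, hxdef, ← mul_assoc, ← conjPSL_mul, dia_mul, one_mul]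
  have hxev : Even (orderOf x) := by
    by_contra hnev
    obtain ⟨j, hj⟩ := Nat.not_even_iff_odd.mp hnev
    have := pow_orderOf_eq_one x
    rw [hj, hxodd, ← conjPSL_one] at this
    exact huniq _ _ this
  have hN1 : N ≠ 1 := by
    intro h0
    have h1 : σ (ν : F) = (ν : F)⁻¹ := by
      have := congrArg Units.val (hN ▸ h0 : ν * Units.map (σ : F →* F) ν = 1)
      simp at this
      exact eq_inv_of_mul_eq_one_right this
    have hall : ∀ z : F, z ≠ 0 → σ z = z⁻¹ := by
      intro z hz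
      obtain ⟨i, hi⟩ := hν (Units.mk0 z hz)
      have h2 : (ν : F) ^ i = z := by
        rw [← Units.val_zpow_eq_zpow_val]
        exact congrArg Units.val hi
      rw [← h2, map_zpow₀, h1, _root_.inv_zpow]
    have hν0 := ν.ne_zero
    have hν1 : (1 : F) + ν ≠ 0 := by
      intro h2
      apply hσν
      refine Units.ext ?_
      show σ (ν : F) = ν
      rw [show (ν : F) = -1 by linear_combination h2, map_neg, map_one]
    have h3 := hall _ hν1
    rw [map_add, map_one, h1] at h3
    field_simp at h3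
    have h4' : (ν : F) ^ 3 = 1 := by linear_combination ((ν : F) - 1) * h3
    have hord : orderOf ν ∣ 3 := orderOf_dvd_of_pow_eq_one (Units.ext (by simpa using h4'))
    rw [orderOf_eq_card_of_forall_mem_zpowers hν, Nat.card_units, Nat.card_eq_fintype_card] at hord
    have := Nat.le_of_dvd (by norm_num) hord
    omega
  obtain ⟨w, hw⟩ : ∃ w : GL₂, w = slMk 0 1 (-1) 0 (by simp) := ⟨_, rfl⟩
  have hwH : (conjPSL w : MulAut PSL₂) ∈ H := hInn (hw ▸ conjPSL_slMk_mem _ _ _ _ _)
  have hwconj : ∀ a b : Fˣ, w * dia a b * w⁻¹ = dia b a := by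
    intro a b
    rw [mul_inv_eq_iff_eq_mul]
    ext i j
    fin_cases i <;> fin_cases j <;> simp [hw, slMk_val, dia, diagGL, Matrix.mul_apply,
      Fin.sum_univ_two]
  have hflip : ∀ a : Fˣ, (conjPSL (dia 1 a) : MulAut PSL₂) = conjPSL (dia a⁻¹ 1) := fun a =>
    conjPSL_eq_of_smul a fun i j => by
      fin_cases i <;> fin_cases j <;> simp [dia, diagGL]
  have hx2 : x ^ 2 = conjPSL (dia N 1) := by
    have := hxpow 1
    rwa [Nat.mul_one, pow_one] at this
  have hz1 : (⟨x, hx⟩ : H) ^ 2 ≠ 1 := by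
    intro h0
    have h1 : x ^ 2 = 1 := congrArg Subtype.val h0
    rw [hx2, ← conjPSL_one] at h1
    obtain ⟨k, hk⟩ := scalar_of_conjPSL_eq h1
    have h00 := hk 0 0
    have h11 := hk 1 1
    simp [dia, diagGL] at h00 h11
    exact hN1 (Units.ext (by rw [h00, ← h11, Units.val_one]))
  have hnm : Nm (⟨conjPSL w, hwH⟩ : H) ((⟨x, hx⟩ : H) ^ 2) := by
    refine ⟨-1, Subtype.ext ?_⟩
    show (x ^ 2) ^ (-1 : ℤ) = conjPSL w * x ^ 2 * (conjPSL w)⁻¹
    rw [_root_.zpow_neg_one, hx2, ← conjPSL_inv, ← conjPSL_inv, ← conjPSL_mul, ← conjPSL_mul, hwconj,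
      hflip]
    congr 1
    ext i j
    fin_cases i <;> fin_cases j <;> simp [dia, diagGL]
  have hnm' := (h.nm_iff (x := (⟨x, hx⟩ : H)) (by rw [Subgroup.orderOf_mk]; exact hxev)
    (Subgroup.npow_mem_zpowers _ 2) hz1).mpr hnm
  obtain ⟨n, hn⟩ := mem_powers_iff_mem_zpowers.mpr hnm'
  have hn' : x ^ n = conjPSL w * x * (conjPSL w)⁻¹ := congrArg Subtype.val hn
  have hwx : conjPSL w * x * (conjPSL w)⁻¹ = (conjPSL (dia ν⁻¹ 1) * mapPSL σ : MulAut PSL₂) := by
    have hfw : Commute (mapPSL σ : MulAut PSL₂) (conjPSL w) := by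
      refine commute_map_of_fixed σ w fun i j => ?_
      fin_cases i <;> fin_cases j <;> simp [hw, slMk_val]
    rw [hxdef, ← mul_assoc, ← conjPSL_mul, mul_assoc, hfw.inv_right.eq, ← mul_assoc, ← conjPSL_inv,
      ← conjPSL_mul, hwconj, hflip]
  rw [hwx] at hn'
  rcases Nat.even_or_odd n with ⟨j, rfl⟩ | ⟨j, rfl⟩
  · rw [← two_mul, hxpow] at hn'
    exact huniq _ _ hn'.symm
  rw [hxodd] at hn'
  obtain ⟨k, hk⟩ := scalar_of_conjPSL_eq (mul_right_cancel hn')
  have h00 := hk 0 0
  have h11 := hk 1 1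
  simp [dia, diagGL] at h00 h11
  rw [← h11, one_mul] at h00
  -- so `ν ^ 2` is fixed by `σ`
  have hν2 : ν ^ 2 = (N ^ j)⁻¹ := by
    rw [eq_inv_iff_mul_eq_one]
    refine Units.ext ?_
    push_cast
    field_simp at h00
    linear_combination h00
  have hσN : Units.map (σ : F →* F) N = N := by
    rw [hN, map_mul, mul_comm]
    congr 1
    exact Units.ext (RingEquiv.congr_fun hσσ (ν : F))
  have hfix : σ ((ν : F) ^ 2) = (ν : F) ^ 2 := by
    have h1 : Units.map (σ : F →* F) (ν ^ 2) = ν ^ 2 := by rw [hν2, map_inv, map_pow, hσN]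
    have := congrArg Units.val h1
    simpa using this
  have hneg : σ (ν : F) = -(ν : F) := by
    rw [map_pow] at hfix
    exact (sq_eq_sq_iff_eq_or_eq_neg.mp hfix).resolve_left fun h0 => hσν (Units.ext h0)
  have hpm : ∀ z : F, σ z = z ∨ σ z = -z := by
    intro z
    rcases eq_or_ne z 0 with rfl | hz
    · simp
    obtain ⟨i, hi⟩ := hν (Units.mk0 z hz)
    have h2 : (ν : F) ^ i = z := by
      rw [← Units.val_zpow_eq_zpow_val]
      exact congrArg Units.val hi
    rcases Int.even_or_odd i with he | ho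
    · left; rw [← h2, map_zpow₀, hneg, he.neg_zpow]
    · right; rw [← h2, map_zpow₀, hneg, ho.neg_zpow]
  have h20 : (2 : F) = 0 := by
    rcases hpm (1 + (ν : F)) with e | e <;> rw [map_add, map_one, hneg] at e
    · exact (mul_eq_zero.mp (by linear_combination -e : (2 : F) * ν = 0)).resolve_right ν.ne_zero
    · linear_combination e
  apply hσν
  refine Units.ext ?_
  show σ (ν : F) = ν
  rw [hneg]
  linear_combination -(ν : F) * h20

end CfsgLib.NormCyclicEven16
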