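import Cfsg.Agent.NormCyclicEven16.Centralizer
import Cfsg.Agent.Transfer.AbelianSylow
import Cfsg.Agent.Transfer.NormalPComplement
import Cfsg.Agent.Eq.Def_CaseTheorems
import Cfsg.Agent.S0215

/-!
Standard facts on simple groups of even order, and the odd core of an involution centraliser.
-/

set_option autoImplicit false

namespace CfsgLib.NormCyclicEven16

variable {G : Type*} [Group G] [Finite G]

theorem center_eq_bot_of_simple [IsSimpleGroup G] (hna : ¬ IsMulCommutative G) :
    Subgroup.center G = ⊥ :=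
  (inferInstance : (Subgroup.center G).Normal).eq_bot_or_eq_top.resolve_right fun h =>
    hna ⟨⟨fun a b => (Subgroup.mem_center_iff.mp (h ▸ Subgroup.mem_top a) b).symm⟩⟩

theorem sylow_ne_bot_of_even (hev : Even (Nat.card G)) (S : Sylow 2 G) : (S : Subgroup G) ≠ ⊥ :=
  S.ne_bot_of_dvd_card (even_iff_two_dvd.mp hev)

theorem not_normal_sylow [IsSimpleGroup G] (hna : ¬ IsMulCommutative G)
    (hev : Even (Nat.card G)) (S : Sylow 2 G) : ¬ (S : Subgroup G).Normal := by
  intro hn
  have htop : (S : Subgroup G) = ⊤ :=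
    hn.eq_bot_or_eq_top.resolve_left (sylow_ne_bot_of_even hev S)
  have hp : IsPGroup 2 G := (S.2.of_equiv (htop ▸ Subgroup.topEquiv))
  haveI : Nontrivial G := IsSimpleGroup.toNontrivial
  have := hp.center_nontrivial
  exact (Subgroup.nontrivial_iff_ne_bot _).mp this (center_eq_bot_of_simple hna)

theorem no_burnside [IsSimpleGroup G] (hna : ¬ IsMulCommutative G) (hev : Even (Nat.card G))
    (S : Sylow 2 G) :
    ¬ Subgroup.normalizer ((S : Subgroup G) : Set G) ≤
      Subgroup.centralizer ((S : Subgroup G) : Set G) := by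
  intro h
  have hc := MonoidHom.ker_transferSylow_isComplement' S h
  rcases (MonoidHom.normal_ker (MonoidHom.transferSylow S h)).eq_bot_or_eq_top with e | e
  · rw [e, Subgroup.isComplement'_bot_left] at hc
    exact not_normal_sylow hna hev S (hc ▸ inferInstance)
  · rw [e, Subgroup.isComplement'_top_left] at hc
    exact sylow_ne_bot_of_even hev S hc

/-- If every odd element normalising an abelian Sylow `2`-subgroup centralises it, `G` is not
simple. -/
theorem false_of_odd_centralize [IsSimpleGroup G] (hna : ¬ IsMulCommutative G)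
    (hev : Even (Nat.card G)) (S : Sylow 2 G)
    (hab : ∀ x ∈ S, ∀ y ∈ S, Commute x y)
    (hodd : ∀ g ∈ Subgroup.normalizer ((S : Subgroup G) : Set G), ∀ q k : ℕ, q.Prime → q ≠ 2 →
      0 < k → orderOf g = q ^ k → ∀ x ∈ S, Commute g x) : False := by
  refine no_burnside hna hev S fun g hg => ?_
  refine Transfer.mem_of_primePow_parts _ _ g rfl fun a ha q k hq hak => ?_
  have haN := Subgroup.zpowers_le.mpr hg ha
  rw [Subgroup.mem_centralizer_iff]
  intro x hx
  rcases Nat.eq_zero_or_pos k with rfl | hk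
  · rw [pow_zero, orderOf_eq_one_iff] at hak
    rw [hak, mul_one, one_mul]
  by_cases hq2 : q = 2
  · exact (hab x hx a (Transfer.mem_sylow_of_pElement S haN (k := k) (hq2 ▸ dvd_of_eq hak))).eq
  · exact (hodd a haN q k hq hq2 hk hak x hx).symm.eq

theorem exists_conj_ne [IsSimpleGroup G] (hna : ¬ IsMulCommutative G)
    (S : Sylow 2 G) {u : G} (hu : orderOf u = 2) (huS : u ∈ S) :
    ∃ g : G, g * u * g⁻¹ ∈ S ∧ g * u * g⁻¹ ≠ u := by
  by_contra hcon
  push Not at hcon
  obtain ⟨N, hN, hodd, hcomm⟩ := Cfsg.Agent.S0215.result S u hu huS hcon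
  have hev : 2 ∣ Nat.card G := hu ▸ orderOf_dvd_natCard u
  have hbot : N = ⊥ := hN.eq_bot_or_eq_top.resolve_right fun h => by
    rw [h, Subgroup.card_top] at hodd
    exact Nat.not_even_iff_odd.mpr hodd (even_iff_two_dvd.mpr hev)
  have hmem : u ∈ Subgroup.center G := Subgroup.mem_center_iff.mpr fun g => by
    have := hcomm g
    rw [hbot, Subgroup.mem_bot, mul_inv_eq_one, mul_inv_eq_iff_eq_mul] at this
    exact this.symm
  rw [center_eq_bot_of_simple hna, Subgroup.mem_bot] at hmem
  exact (orderOf_eq_two_iff'.mp hu).2 hmem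

theorem not_index_two [IsSimpleGroup G] (hna : ¬ IsMulCommutative G) {M : Subgroup G}
    (hM : M.Normal) : M.index ≠ 2 := by
  intro h2
  rcases hM.eq_bot_or_eq_top with rfl | rfl
  · rw [Subgroup.index_bot] at h2
    haveI := Fact.mk Nat.prime_two
    haveI := isCyclic_of_prime_card h2
    exact hna ⟨⟨fun a b => (IsCyclic.commGroup (α := G)).mul_comm a b⟩⟩
  · rw [Subgroup.index_top] at h2
    omega

/-- The odd part of an involution centraliser is its odd core. -/
theorem oddCore_map_eq (h : Hyp G) {t : G} (ht : orderOf t = 2) :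
    (Cfsg.oddCore (Subgroup.centralizer ({t} : Set G))).map
      (Subgroup.centralizer ({t} : Set G)).subtype = oddPart h ht := by
  obtain ⟨C, hC⟩ : ∃ C, C = Subgroup.centralizer ({t} : Set G) := ⟨_, rfl⟩
  rw [← hC]
  have hmC : ∀ g, g ∈ C ↔ Commute g t := fun g => hC ▸ mem_centralizer_singleton_iff'
  have hle : oddPart h ht ≤ C := fun a ha => (hmC a).mpr ha.1
  have heq : Cfsg.oddCore C = (oddPart h ht).subgroupOf C := by
    apply le_antisymm
    · apply sSup_le
      rintro N ⟨-, hcop⟩ x hx
      refine ⟨(hmC _).mp x.2, ?_⟩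
      have h1 : orderOf x ∣ Nat.card N := by
        have := orderOf_dvd_natCard (⟨x, hx⟩ : N)
        rwa [Subgroup.orderOf_mk] at this
      show Odd (orderOf (x : G))
      rw [Subgroup.orderOf_coe]
      exact (Nat.coprime_two_right.mp hcop).of_dvd_nat h1
    · refine le_sSup ⟨⟨fun a ha g => ?_⟩, ?_⟩
      · rw [Subgroup.mem_subgroupOf] at ha ⊢
        exact h.oddPart_conj_mem ht ha ((hmC _).mp g.2)
      · rw [Nat.coprime_two_right, ← Nat.not_even_iff_odd, even_iff_two_dvd,
          Nat.card_congr (Subgroup.subgroupOfEquivOfLe hle).toEquiv]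
        intro hdvd
        haveI := Fact.mk Nat.prime_two
        obtain ⟨x, hx⟩ := exists_prime_orderOf_dvd_card' 2 hdvd
        rw [← Subgroup.orderOf_coe] at hx
        have := x.2.2
        rw [hx] at this
        exact absurd this (by decide)
  rw [heq, Subgroup.map_subgroupOf_eq_of_le hle]

end CfsgLib.NormCyclicEven16
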