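import Cfsg.Agent.NormCyclicEven16.Basic

/-!
Square involutions are central in every `2`-subgroup containing a root.
-/

set_option autoImplicit false

namespace CfsgLib.NormCyclicEven16

variable {G : Type*} [Group G] [Finite G]

theorem mem_zpowers_four {y w : G} (hy : y ^ 4 = 1) (hw : w ∈ Subgroup.zpowers y) :
    w = 1 ∨ w = y ∨ w = y * y ∨ w = y⁻¹ := by
  obtain ⟨i, rfl⟩ := mem_powers_iff_mem_zpowers.mpr hw
  simp only
  rw [pow_eq_pow_mod i hy]
  have h4 : i % 4 < 4 := Nat.mod_lt _ (by norm_num)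
  rcases (by omega : i % 4 = 0 ∨ i % 4 = 1 ∨ i % 4 = 2 ∨ i % 4 = 3) with e | e | e | e <;> rw [e]
  · exact Or.inl (pow_zero y)
  · exact Or.inr (Or.inl (pow_one y))
  · exact Or.inr (Or.inr (Or.inl (pow_two y)))
  · refine Or.inr (Or.inr (Or.inr (eq_inv_of_mul_eq_one_left ?_)))
    rw [← pow_succ]; exact hy

theorem two_of_sq {x z : G} (hz : orderOf z = 2) (hxz : x * x = z) : Two x :=
  ⟨2, by rw [show (2 : ℕ) ^ 2 = 2 * 2 by norm_num, pow_mul, pow_two x, hxz, ← hz, pow_orderOf_eq_one]⟩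

theorem mem_zpowers_of_sq {x z : G} (hxz : x * x = z) : z ∈ Subgroup.zpowers x :=
  hxz ▸ mul_mem (Subgroup.mem_zpowers x) (Subgroup.mem_zpowers x)

theorem pow_four_of_sq {x z : G} (hz : orderOf z = 2) (hxz : x * x = z) : x ^ 4 = 1 := by
  rw [show (4 : ℕ) = 2 * 2 by norm_num, pow_mul, pow_two x, hxz, ← hz, pow_orderOf_eq_one]

/-- An element normalising `⟨x⟩`, `x` of order four, sends `x` to `x` or `x⁻¹`. -/
theorem eq_or_eq_inv_of_nm {g x z : G} (hz : orderOf z = 2) (hxz : x * x = z) (h : Nm g x) :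
    g * x * g⁻¹ = x ∨ g * x * g⁻¹ = x⁻¹ := by
  have hz1 := (orderOf_eq_two_iff'.mp hz).2
  have hne : (g * x * g⁻¹) * (g * x * g⁻¹) ≠ 1 := by
    rw [show (g * x * g⁻¹) * (g * x * g⁻¹) = g * (x * x) * g⁻¹ by group, hxz]
    intro h1
    exact hz1 (by simpa using h1)
  rcases mem_zpowers_four (pow_four_of_sq hz hxz) h with e | e | e | e
  · exact absurd (by rw [e, one_mul]) hne
  · exact Or.inl e
  · refine absurd ?_ hne
    rw [e, hxz]
    exact (orderOf_eq_two_iff'.mp hz).1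
  · exact Or.inr e

/-- Elements with different involutions normalising each other's cyclic subgroups commute. -/
theorem commute_of_nm_nm {x x' z z' : G} (hz : orderOf z = 2) (hz' : orderOf z' = 2) (hne : z ≠ z')
    (hx : Two x) (hzx : z ∈ Subgroup.zpowers x) (hzx' : z' ∈ Subgroup.zpowers x')
    (h1 : Nm x x') (h2 : Nm x' x) : Commute x x' := by
  have hc : x * x' * x⁻¹ * x'⁻¹ ∈ Subgroup.zpowers x := by
    rw [show x * x' * x⁻¹ * x'⁻¹ = x * (x' * x * x'⁻¹)⁻¹ by group]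
    exact mul_mem (Subgroup.mem_zpowers x) (inv_mem h2)
  have hc' : x * x' * x⁻¹ * x'⁻¹ ∈ Subgroup.zpowers x' :=
    mul_mem h1 (inv_mem (Subgroup.mem_zpowers x'))
  by_cases hc1 : x * x' * x⁻¹ * x'⁻¹ = 1
  · exact mul_inv_eq_iff_eq_mul.mp (mul_inv_eq_one.mp hc1)
  obtain ⟨k, hk⟩ := hx
  have hct : Two (x * x' * x⁻¹ * x'⁻¹) := by
    obtain ⟨i, hi⟩ := hc
    refine ⟨k, ?_⟩
    rw [← hi]
    show (x ^ i) ^ 2 ^ k = 1
    rw [← zpow_natCast, ← zpow_mul, mul_comm, zpow_mul, zpow_natCast, hk, one_zpow]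
  obtain ⟨w, hw, hwc⟩ := hct.exists_involution hc1
  exact absurd ((involution_unique hz hw hzx (Subgroup.zpowers_le.mpr hc hwc)).trans
    (involution_unique hz' hw hzx' (Subgroup.zpowers_le.mpr hc' hwc)).symm) hne

theorem exists_normalizing_not_mem' {S P : Subgroup G} (hS : IsPGroup 2 ↥S) (hPS : P ≤ S)
    (hne : P ≠ S) : ∃ g ∈ S, g ∉ P ∧ ∀ x ∈ P, g * x * g⁻¹ ∈ P := by
  haveI : Group.IsNilpotent ↥S := hS.isNilpotent
  have hlt : P.subgroupOf S < ⊤ := lt_top_iff_ne_top.2 fun h =>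
    hne (le_antisymm hPS (Subgroup.subgroupOf_eq_top.1 h))
  obtain ⟨s, hs, hsn⟩ := SetLike.exists_of_lt (Group.normalizerCondition_of_isNilpotent _ hlt)
  exact ⟨s, s.2, hsn, fun x hx => (Subgroup.mem_normalizer_iff.1 hs ⟨x, hPS hx⟩).1 hx⟩

/-- An involution which is a square in a `2`-subgroup is central in it. -/
theorem Hyp.sq_central (h : Hyp G) {S : Subgroup G} (hS : IsPGroup 2 ↥S) {x z : G} (hxS : x ∈ S)
    (hz : orderOf z = 2) (hxz : x * x = z) : ∀ s ∈ S, Commute s z := by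
  by_contra hcon
  obtain ⟨P, hP⟩ : ∃ P, P = S ⊓ Subgroup.centralizer ({z} : Set G) := ⟨_, rfl⟩
  have hmP : ∀ s, s ∈ P ↔ s ∈ S ∧ Commute s z := fun s => by
    rw [hP, Subgroup.mem_inf, Subgroup.mem_centralizer_singleton_iff]; rfl
  have hne : P ≠ S := fun h0 => hcon fun s hs => ((hmP s).mp (h0.symm ▸ hs)).2
  obtain ⟨g₀, hg₀S, hg₀P, hg₀n⟩ :=
    exists_normalizing_not_mem' hS (fun s hs => ((hmP s).mp hs).1) hne
  -- replace `g₀` by a power whose square lies in `P`
  obtain ⟨g, hgS, hgP, hgn, hggP⟩ :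
      ∃ g ∈ S, g ∉ P ∧ (∀ y ∈ P, g * y * g⁻¹ ∈ P) ∧ g * g ∈ P := by
    obtain ⟨k, hk⟩ := two_of_mem hS hg₀S
    have hn : ∀ n : ℕ, ∀ y ∈ P, g₀ ^ n * y * (g₀ ^ n)⁻¹ ∈ P := by
      intro n
      induction n with
      | zero => simp
      | succ n ih =>
        intro y hy
        have := hg₀n _ (ih y hy)
        simpa [pow_succ', mul_assoc] using this
    classical
    have hex : ∃ j, g₀ ^ 2 ^ j ∈ P := ⟨k, hk.symm ▸ one_mem P⟩
    obtain ⟨j, hj⟩ : ∃ j, Nat.find hex = j + 1 := by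
      rcases hf : Nat.find hex with - | j
      · have := Nat.find_spec hex
        rw [hf, pow_zero, pow_one] at this
        exact absurd this hg₀P
      · exact ⟨j, rfl⟩
    refine ⟨g₀ ^ 2 ^ j, pow_mem hg₀S _, Nat.find_min hex (by omega), hn _, ?_⟩
    rw [← pow_add, ← two_mul, ← pow_succ', ← hj]
    exact Nat.find_spec hex
  have hgz : ¬ Commute g z := fun hc => hgP ((hmP g).mpr ⟨hgS, hc⟩)
  have hzx : z ∈ Subgroup.zpowers x := mem_zpowers_of_sq hxz
  have hx2 : Two x := two_of_sq hz hxz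
  have hxzc : Commute x z := hxz ▸ (Commute.refl x).mul_right (Commute.refl x)
  have hxP : x ∈ P := (hmP x).mpr ⟨hxS, hxzc⟩
  obtain ⟨x', hx'⟩ : ∃ x', x' = g * x * g⁻¹ := ⟨_, rfl⟩
  obtain ⟨z', hz'⟩ : ∃ z', z' = g * z * g⁻¹ := ⟨_, rfl⟩
  have hz'2 : orderOf z' = 2 := by rw [hz', orderOf_conj', hz]
  have hxz' : x' * x' = z' := by rw [hx', hz', ← hxz]; group
  have hne' : z ≠ z' := fun h0 => hgz (mul_inv_eq_iff_eq_mul.mp (hz' ▸ h0.symm))
  have hx'P : x' ∈ P := hx' ▸ hgn x hxP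
  have hx'z : Commute x' z := ((hmP x').mp hx'P).2
  have hggz : Commute (g * g) z := ((hmP _).mp hggP).2
  have hxz'c : Commute x z' := by
    have h1 : g * x' * g⁻¹ ∈ P := hgn _ hx'P
    have hPz' : ∀ y ∈ P, Commute (g * y * g⁻¹) z' := fun y hy =>
      hz' ▸ (commute_conj_iff g y z).mpr ((hmP y).mp hy).2
    have h2 : (g * g)⁻¹ * (g * x' * g⁻¹) * (g * g) ∈ P := by
      exact mul_mem (mul_mem (inv_mem hggP) h1) hggP
    have h3 := hPz' _ h2
    have e : g * ((g * g)⁻¹ * (g * x' * g⁻¹) * (g * g)) * g⁻¹ = x' := by group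
    rw [e] at h3
    have hgx : g⁻¹ * x * g ∈ P := by
      have := mul_mem (mul_mem (inv_mem hggP) (hgn x hxP)) hggP
      convert this using 1
      group
    have := hPz' _ hgx
    rwa [show g * (g⁻¹ * x * g) * g⁻¹ = x by group] at this
  have hzx' : z' ∈ Subgroup.zpowers x' := mem_zpowers_of_sq hxz'
  have hxx' : Commute x x' := commute_of_nm_nm hz hz'2 hne' hx2 hzx hzx'
    (h.nm_of_commute hz'2 hzx' (Subgroup.mem_zpowers x') hxz'c)
    (h.nm_of_commute hz hzx (Subgroup.mem_zpowers x) hx'z)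
  obtain ⟨y, hy⟩ : ∃ y, y = x * x' := ⟨_, rfl⟩
  obtain ⟨t, htdef⟩ : ∃ t, t = z * z' := ⟨_, rfl⟩
  have hyy : y * y = t := by
    calc y * y = x * (x' * x) * x' := by rw [hy]; group
      _ = x * (x * x') * x' := by rw [hxx'.eq]
      _ = (x * x) * (x' * x') := by group
      _ = t := by rw [hxz, hxz', htdef]
  have hzz' : Commute z z' := hxz ▸ hxz'c.mul_left hxz'c
  have ht : orderOf t = 2 := by
    obtain ⟨a1, a2⟩ := orderOf_eq_two_iff'.mp hz
    obtain ⟨b1, -⟩ := orderOf_eq_two_iff'.mp hz'2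
    rw [orderOf_eq_two_iff', htdef]
    refine ⟨?_, fun h0 => hne' ?_⟩
    · calc z * z' * (z * z') = z * (z' * z) * z' := by group
        _ = z * (z * z') * z' := by rw [hzz'.eq]
        _ = (z * z) * (z' * z') := by group
        _ = 1 := by rw [a1, b1, one_mul]
    · calc z = z * (z' * z') := by rw [b1, mul_one]
        _ = z' := by rw [← mul_assoc, h0, one_mul]
  have hty : t ∈ Subgroup.zpowers y := mem_zpowers_of_sq hyy
  have hgt : Commute g t := by
    refine mul_inv_eq_iff_eq_mul.mp ?_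
    calc g * t * g⁻¹ = (g * z * g⁻¹) * ((g * g) * z * (g * g)⁻¹) := by rw [htdef, hz']; group
      _ = z' * z := by rw [hggz.eq, mul_inv_cancel_right, ← hz']
      _ = t := by rw [htdef, hzz'.eq]
  obtain ⟨X, hX⟩ : ∃ X, X = (g * g) * x * (g * g)⁻¹ := ⟨_, rfl⟩
  have hXx : X = x ∨ X = x⁻¹ :=
    hX ▸ eq_or_eq_inv_of_nm hz hxz (h.nm_of_commute hz hzx (Subgroup.mem_zpowers x) hggz)
  have hgy : g * y * g⁻¹ = x' * X := by rw [hy, hX, hx']; group
  have hz1 := (orderOf_eq_two_iff'.mp hz).2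
  have hfix : X = x ∧ g * y * g⁻¹ = y := by
    rcases eq_or_eq_inv_of_nm ht hyy (h.nm_of_commute ht hty (Subgroup.mem_zpowers y) hgt) with e | e
    · refine ⟨mul_left_cancel (a := x') ?_, e⟩
      rw [← hgy, e, hy, hxx'.eq]
    · exfalso
      have e' : x' * X = x⁻¹ * x'⁻¹ := by
        rw [← hgy, e, hy, mul_inv_rev, (hxx'.inv_inv).eq]
      have hzi : ∀ {w : G}, orderOf w = 2 → w⁻¹ = w := fun hw =>
        inv_eq_of_mul_eq_one_right (orderOf_eq_two_iff'.mp hw).1
      rcases hXx with e1 | e1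
      · refine hne' ?_
        rw [e1] at e'
        have h5 : x * x = (x' * x')⁻¹ := by
          calc x * x = x'⁻¹ * (x' * x) * x := by group
            _ = x'⁻¹ * (x⁻¹ * x'⁻¹) * x := by rw [e']
            _ = x'⁻¹ * (x'⁻¹ * x⁻¹) * x := by rw [(hxx'.inv_inv).eq]
            _ = (x' * x')⁻¹ := by group
        rw [hxz, hxz', hzi hz'2] at h5
        exact h5
      · refine (orderOf_eq_two_iff'.mp hz'2).2 ?_
        rw [e1, (hxx'.inv_inv).eq] at e'
        have h5 : x' = x'⁻¹ := mul_right_cancel e'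
        rw [← hxz']
        nth_rewrite 2 [h5]
        exact mul_inv_cancel x'
  have hgxc : Commute (g * g) x := mul_inv_eq_iff_eq_mul.mp (hX ▸ hfix.1)
  have hgyc : Commute g y := mul_inv_eq_iff_eq_mul.mp hfix.2
  have hxy : Commute x y := hy ▸ (Commute.refl x).mul_right hxx'
  -- an element which commutes with `y` and with `x * x'⁻¹` commutes with `z`
  have final : ∀ k : G, Commute k y → x * x'⁻¹ ∈ Subgroup.zpowers k → Commute k z := by
    intro k hky hk
    obtain ⟨i, hi⟩ := hk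
    have h1 : Commute k (x * x'⁻¹) := hi ▸ Commute.self_zpow k i
    have h2 : z = (x * x'⁻¹) * y := by
      rw [hy, ← hxz]
      calc x * x = x * x'⁻¹ * (x' * x) := by group
        _ = x * x'⁻¹ * (x * x') := by rw [hxx'.eq]
    exact h2 ▸ h1.mul_right hky
  by_cases hgg : g * g = 1
  · have hginv : g⁻¹ = g := inv_eq_of_mul_eq_one_right hgg
    have hkk : (g * x) * (g * x) = y := by
      calc (g * x) * (g * x) = (g * x * g⁻¹) * x := by rw [hginv]; group
        _ = x' * x := by rw [← hx']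
        _ = y := by rw [hy, hxx'.eq]
    have htk : t ∈ Subgroup.zpowers (g * x) := by
      rw [← hyy, ← hkk]
      exact mul_mem (mul_mem (Subgroup.mem_zpowers _) (Subgroup.mem_zpowers _))
        (mul_mem (Subgroup.mem_zpowers _) (Subgroup.mem_zpowers _))
    have hxt : Commute x t := by rw [← hyy]; exact hxy.mul_right hxy
    have hn := h.nm_of_commute ht htk (Subgroup.mem_zpowers (g * x)) hxt
    have hmem : x * x'⁻¹ ∈ Subgroup.zpowers (g * x) := by
      have := mul_mem hn (inv_mem (Subgroup.mem_zpowers (g * x)))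
      rwa [show x * (g * x) * x⁻¹ * (g * x)⁻¹ = x * (g * x * g⁻¹)⁻¹ by group, ← hx'] at this
    have h1 := final (g * x) (hgyc.mul_left hxy) hmem
    refine hgz ?_
    have := h1.mul_left hxzc.inv_left
    rwa [mul_inv_cancel_right] at this
  · have hg2 : Two g := two_of_mem hS hgS
    have hgg2 : Two (g * g) := two_of_mem hS (mul_mem hgS hgS)
    obtain ⟨τ, hτ, hτg⟩ := hgg2.exists_involution hgg
    have hτx : Commute x τ := by
      obtain ⟨i, rfl⟩ := hτg
      exact hgxc.symm.zpow_right i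
    have hτg' : τ ∈ Subgroup.zpowers g :=
      Subgroup.zpowers_le.mpr (mul_mem (Subgroup.mem_zpowers g) (Subgroup.mem_zpowers g)) hτg
    have hn := h.nm_of_commute hτ hτg' (Subgroup.mem_zpowers g) hτx
    have hmem : x * x'⁻¹ ∈ Subgroup.zpowers g := by
      have := mul_mem hn (inv_mem (Subgroup.mem_zpowers g))
      rwa [show x * g * x⁻¹ * g⁻¹ = x * (g * x * g⁻¹)⁻¹ by group, ← hx'] at this
    exact hgz (final g hgyc hmem)

end CfsgLib.NormCyclicEven16
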