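import Cfsg.Agent.NormCyclicEven16.Dedekind
import Cfsg.Agent.NormCyclicEven16.SquareCentral

/-!
The structure of `2`-subgroups: either inverted by an involution or governed by the centraliser
of the elements of order four.
-/

set_option autoImplicit false

namespace CfsgLib.NormCyclicEven16

variable {G : Type*} [Group G]

/-- An element of order four of `S`. -/
def Root (S : Subgroup G) (y : G) : Prop := y ∈ S ∧ y ^ 4 = 1 ∧ y * y ≠ 1

variable {S : Subgroup G}

theorem Root.mem {y : G} (hy : Root S y) : y ∈ S := hy.1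

theorem Root.orderOf_sq {y : G} (hy : Root S y) : orderOf (y * y) = 2 :=
  orderOf_eq_two_iff'.mpr ⟨by rw [← pow_two, ← pow_two, ← pow_mul]; exact hy.2.1, hy.2.2⟩

theorem Root.ne_inv {y : G} (hy : Root S y) : y⁻¹ ≠ y := fun h =>
  hy.2.2 (by nth_rewrite 2 [← h]; exact mul_inv_cancel y)

theorem exists_root {g : G} (hS : IsPGroup 2 ↥S) (hg : g ∈ S) (h : g * g ≠ 1) :
    ∃ j : ℕ, Root S (g ^ 2 ^ j) := by
  obtain ⟨j, h4, h2⟩ := (two_of_mem hS hg).exists_order_four h
  exact ⟨j, pow_mem hg _, h4, h2⟩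

theorem Root.mul_of_commute {u y : G} (hy : Root S y) (hu : u ∈ S) (huu : u * u = 1)
    (hc : Commute u y) : Root S (u * y) ∧ (u * y) * (u * y) = y * y := by
  have hsq : (u * y) * (u * y) = y * y := by
    calc (u * y) * (u * y) = u * (y * u) * y := by group
      _ = u * (u * y) * y := by rw [hc.eq]
      _ = (u * u) * (y * y) := by group
      _ = y * y := by rw [huu, one_mul]
  refine ⟨⟨mul_mem hu hy.1, ?_, hsq ▸ hy.2.2⟩, hsq⟩
  rw [show (4 : ℕ) = 2 * 2 by norm_num, pow_mul, pow_two (u * y), hsq, ← pow_two y, ← pow_mul]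
  exact hy.2.1

variable [Finite G]

theorem Hyp.root_central (h : Hyp G) (hS : IsPGroup 2 ↥S) {y : G} (hy : Root S y) :
    ∀ g ∈ S, Commute g (y * y) :=
  h.sq_central hS hy.1 hy.orderOf_sq rfl

theorem Hyp.root_nm (h : Hyp G) (hS : IsPGroup 2 ↥S) {y : G} (hy : Root S y) {g : G} (hg : g ∈ S) :
    Nm g y :=
  h.nm_of_commute hy.orderOf_sq (mem_zpowers_of_sq rfl) (Subgroup.mem_zpowers y)
    (h.root_central hS hy g hg)

theorem Hyp.root_conj (h : Hyp G) (hS : IsPGroup 2 ↥S) {y : G} (hy : Root S y) {g : G}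
    (hg : g ∈ S) : g * y * g⁻¹ = y ∨ g * y * g⁻¹ = y⁻¹ :=
  eq_or_eq_inv_of_nm hy.orderOf_sq rfl (h.root_nm hS hy hg)

theorem Hyp.root_conj_of_not_commute (h : Hyp G) (hS : IsPGroup 2 ↥S) {y : G} (hy : Root S y)
    {g : G} (hg : g ∈ S) (hn : ¬ Commute g y) : g * y * g⁻¹ = y⁻¹ :=
  (h.root_conj hS hy hg).resolve_left fun e => hn (mul_inv_eq_iff_eq_mul.mp e)

theorem commute_mul_of_inverts {g g' y : G} (h1 : g * y * g⁻¹ = y⁻¹) (h2 : g' * y * g'⁻¹ = y⁻¹) :
    Commute (g * g') y := by
  refine mul_inv_eq_iff_eq_mul.mp ?_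
  calc g * g' * y * (g * g')⁻¹ = g * (g' * y * g'⁻¹) * g⁻¹ := by group
    _ = g * y⁻¹ * g⁻¹ := by rw [h2]
    _ = (g * y * g⁻¹)⁻¹ := by group
    _ = y := by rw [h1, inv_inv]

theorem commute_of_inverts {u v s : G} (hu : s * u * s⁻¹ = u⁻¹) (hv : s * v * s⁻¹ = v⁻¹)
    (huv : s * (u * v) * s⁻¹ = (u * v)⁻¹) : Commute u v := by
  have e : (u * v)⁻¹ = u⁻¹ * v⁻¹ := by
    rw [← huv, ← hu, ← hv]; group
  have := congrArg (·⁻¹) e
  simp only [inv_inv, mul_inv_rev] at this
  exact this

/-- One square involution and an involution commuting with no element of order four. -/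
theorem Hyp.single_square (h : Hyp G) (hS : IsPGroup 2 ↥S) {s : G} (hs : s ∈ S)
    (hno : ∀ y, Root S y → ¬ Commute s y) (huniq : ∀ y y', Root S y → Root S y' → y * y = y' * y')
    {y : G} (hy : Root S y) :
    s ∉ S ⊓ Subgroup.centralizer ({y} : Set G) ∧
    (∀ g ∈ S, g ∈ S ⊓ Subgroup.centralizer ({y} : Set G) ∨
      s * g ∈ S ⊓ Subgroup.centralizer ({y} : Set G)) ∧
    (∀ u ∈ S ⊓ Subgroup.centralizer ({y} : Set G), s * u * s⁻¹ = u⁻¹) ∧
    (∀ u ∈ S ⊓ Subgroup.centralizer ({y} : Set G),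
      ∀ v ∈ S ⊓ Subgroup.centralizer ({y} : Set G), Commute u v) := by
  have hm : ∀ g, g ∈ S ⊓ Subgroup.centralizer ({y} : Set G) ↔ g ∈ S ∧ Commute g y := fun g => by
    rw [Subgroup.mem_inf, Subgroup.mem_centralizer_singleton_iff]; rfl
  have hinvroot : ∀ r, Root S r → s * r * s⁻¹ = r⁻¹ := fun r hr =>
    h.root_conj_of_not_commute hS hr hs (hno r hr)
  have hinvbig : ∀ g ∈ S, g * g ≠ 1 → s * g * s⁻¹ = g⁻¹ := by
    intro g hg hgg
    obtain ⟨j, hr⟩ := exists_root hS hg hgg
    have ht := hr.orderOf_sq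
    have hgn : Nm s g :=
      h.nm_of_commute ht (mul_mem (Subgroup.npow_mem_zpowers g _) (Subgroup.npow_mem_zpowers g _))
        (Subgroup.mem_zpowers g) (h.root_central hS hr s hs)
    obtain ⟨i, hi⟩ := hgn
    have hi : g ^ i = s * g * s⁻¹ := hi
    by_contra hne
    -- `g * s` has order at least four
    obtain ⟨k, hk⟩ : ∃ k, k = g * s := ⟨_, rfl⟩
    rcases em (s * s = 1) with hss | hss
    · have hkk : k * k = g * g ^ i := by
        rw [hk, hi, inv_eq_of_mul_eq_one_right hss]; group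
      have hk1 : k * k ≠ 1 := fun h1 => hne (by
        rw [← hi]; exact (inv_eq_of_mul_eq_one_right (hkk ▸ h1)).symm)
      obtain ⟨j', hr'⟩ := exists_root hS (hk ▸ mul_mem hg hs) hk1
      rcases j' with - | j'
      · rw [pow_zero, pow_one] at hr'
        have hs1 : s * k * s⁻¹ = k⁻¹ := hinvroot _ hr'
        have h3 : s * k * s⁻¹ = s * g := by rw [hk]; group
        have h4 : k⁻¹ = s * g⁻¹ := by rw [hk, mul_inv_rev, inv_eq_of_mul_eq_one_right hss]
        rw [h3, h4] at hs1
        have hgg' : g = g⁻¹ := mul_left_cancel hs1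
        exact hgg (by nth_rewrite 2 [hgg']; exact mul_inv_cancel g)
      · have hmem : k ^ 2 ^ (j' + 1) ∈ Subgroup.zpowers g := by
          rw [pow_succ', pow_mul, pow_two, hkk]
          exact pow_mem (mul_mem (Subgroup.mem_zpowers g) (Subgroup.zpow_mem_zpowers g i)) _
        obtain ⟨l, hl⟩ := hmem
        have hcg : Commute g (k ^ 2 ^ (j' + 1)) := hl ▸ Commute.self_zpow g l
        have hck : Commute k (k ^ 2 ^ (j' + 1)) := Commute.self_pow k _
        have := hcg.inv_left.mul_left hck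
        rw [hk, inv_mul_cancel_left, ← hk] at this
        exact hno _ hr' this
    · obtain ⟨j', hr'⟩ := exists_root hS hs hss
      exact hno _ hr' (Commute.self_pow s _)
  have hinvU : ∀ u ∈ S ⊓ Subgroup.centralizer ({y} : Set G), s * u * s⁻¹ = u⁻¹ := by
    intro u hu
    obtain ⟨huS, huy⟩ := (hm u).mp hu
    by_cases huu : u * u = 1
    · have h1 := hinvroot _ (hy.mul_of_commute huS huu huy).1
      have h2 : (s * u * s⁻¹) * (s * y * s⁻¹) = (u * y)⁻¹ := by rw [← h1]; group
      rw [hinvroot y hy, huy.eq, mul_inv_rev] at h2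
      exact mul_right_cancel h2
    · exact hinvbig u huS huu
  refine ⟨fun h0 => hno y hy ((hm s).mp h0).2, fun g hg => ?_, hinvU, fun u hu v hv =>
    commute_of_inverts (hinvU u hu) (hinvU v hv) (hinvU _ (mul_mem hu hv))⟩
  by_cases hgy : Commute g y
  · exact Or.inl ((hm g).mpr ⟨hg, hgy⟩)
  · exact Or.inr ((hm _).mpr ⟨mul_mem hs hg,
      commute_mul_of_inverts (hinvroot y hy) (h.root_conj_of_not_commute hS hy hg hgy)⟩)

section Many

variable (h : Hyp G) (hS : IsPGroup 2 ↥S) {p q : G} (hp : Root S p) (hq : Root S q)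
  (hpq : p * p ≠ q * q)

include hp hq hpq in
omit [Finite G] in
theorem exists_root_sq_ne (y : G) : ∃ w, Root S w ∧ w * w ≠ y * y := by
  by_cases hyp : p * p = y * y
  · exact ⟨q, hq, fun h' => hpq (hyp.trans h'.symm)⟩
  · exact ⟨p, hp, hyp⟩

include h hS in
theorem commute_roots_of_ne {x y : G} (hx : Root S x) (hy : Root S y) (hne : x * x ≠ y * y) :
    Commute x y :=
  commute_of_nm_nm hx.orderOf_sq hy.orderOf_sq hne (two_of_sq hx.orderOf_sq rfl)
    (mem_zpowers_of_sq rfl) (mem_zpowers_of_sq rfl) (h.root_nm hS hy hx.1) (h.root_nm hS hx hy.1)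

include h hS in
theorem root_mul_of_ne {x y : G} (hx : Root S x) (hy : Root S y) (hne : x * x ≠ y * y) :
    Root S (x * y) ∧ (x * y) * (x * y) = (x * x) * (y * y) ∧ (x * y) * (x * y) ≠ y * y := by
  have hc := commute_roots_of_ne h hS hx hy hne
  have hsq : (x * y) * (x * y) = (x * x) * (y * y) := by
    calc (x * y) * (x * y) = x * (y * x) * y := by group
      _ = x * (x * y) * y := by rw [hc.eq]
      _ = (x * x) * (y * y) := by group
  refine ⟨⟨mul_mem hx.1 hy.1, by rw [hc.mul_pow, hx.2.1, hy.2.1, mul_one], fun h1 => hne ?_⟩, hsq,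
    fun h1 => hx.2.2 ?_⟩
  · rw [hsq, mul_eq_one_iff_eq_inv] at h1
    rw [h1, inv_eq_of_mul_eq_one_right (orderOf_eq_two_iff'.mp hy.orderOf_sq).1]
  · rw [hsq, mul_eq_right] at h1
    exact h1

include h hS hp hq hpq in
theorem commute_roots {x y : G} (hx : Root S x) (hy : Root S y) : Commute x y := by
  by_cases hne : x * x = y * y
  · obtain ⟨w, hw, hwy⟩ := exists_root_sq_ne hp hq hpq y
    obtain ⟨hwy1, -, hwy3⟩ := root_mul_of_ne h hS hw hy hwy
    have h1 : Commute x (w * y) :=
      commute_roots_of_ne h hS hx hwy1 (fun h0 => hwy3 (h0.symm.trans hne))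
    have h2 : Commute x w := commute_roots_of_ne h hS hx hw (fun h0 => hwy (h0.symm.trans hne))
    have := h2.inv_right.mul_right h1
    rwa [inv_mul_cancel_left] at this
  · exact commute_roots_of_ne h hS hx hy hne

include h hS hp hq hpq in
theorem commute_root_of_commute {g x y : G} (hg : g ∈ S) (hx : Root S x) (hy : Root S y)
    (hgx : Commute g x) : Commute g y := by
  have key : ∀ a b, Root S a → Root S b → a * a ≠ b * b → Commute g a → Commute g b := by
    intro a b ha hb hne hga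
    by_contra hgb
    have eb := h.root_conj_of_not_commute hS hb hg hgb
    have ea : g * a * g⁻¹ = a := by rw [hga.eq, mul_inv_cancel_right]
    have eab : g * (a * b) * g⁻¹ = a * b⁻¹ := by
      calc g * (a * b) * g⁻¹ = (g * a * g⁻¹) * (g * b * g⁻¹) := by group
        _ = a * b⁻¹ := by rw [ea, eb]
    have hc := commute_roots_of_ne h hS ha hb hne
    rcases h.root_conj hS (root_mul_of_ne h hS ha hb hne).1 hg with e | e
    · exact hb.ne_inv (mul_left_cancel (eab.symm.trans e))
    · rw [eab, mul_inv_rev, ← (hc.inv_inv).eq] at e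
      exact ha.ne_inv (mul_right_cancel e).symm
  by_cases hne : x * x = y * y
  · obtain ⟨w, hw, hwy⟩ := exists_root_sq_ne hp hq hpq y
    exact key w y hw hy hwy (key x w hx hw (fun h0 => hwy (h0.symm.trans hne)) hgx)
  · exact key x y hx hy hne hgx

end Many

/-- The elements of `S` commuting with every element of order four. -/
def rootCentralizer (S : Subgroup G) : Subgroup G :=
  S ⊓ Subgroup.centralizer {y | Root S y}

omit [Finite G] in
theorem mem_rootCentralizer {g : G} :
    g ∈ rootCentralizer S ↔ g ∈ S ∧ ∀ y, Root S y → Commute g y := by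
  rw [rootCentralizer, Subgroup.mem_inf, Subgroup.mem_centralizer_iff]
  exact and_congr_right fun _ => ⟨fun h y hy => (h y hy).symm, fun h y hy => (h y hy).symm⟩

/-- At least two square involutions: the root centraliser has index at most two, is abelian,
and its complement consists of involutions inverting the roots. -/
theorem Hyp.many_squares (h : Hyp G) (hS : IsPGroup 2 ↥S) {p q : G} (hp : Root S p)
    (hq : Root S q) (hpq : p * p ≠ q * q) :
    p ∈ rootCentralizer S ∧ q ∈ rootCentralizer S ∧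
    (∀ g ∈ S, g ∉ rootCentralizer S → g * g = 1) ∧
    (∀ g ∈ S, g ∉ rootCentralizer S → ∀ k ∈ S, k ∉ rootCentralizer S →
      g * k ∈ rootCentralizer S) ∧
    (∀ u ∈ rootCentralizer S, ∀ v ∈ rootCentralizer S, Commute u v) := by
  have hroots : ∀ x, Root S x → x ∈ rootCentralizer S := fun x hx =>
    mem_rootCentralizer.mpr ⟨hx.1, fun y hy => commute_roots h hS hp hq hpq hx hy⟩
  have hout : ∀ g ∈ S, g ∉ rootCentralizer S → ∀ x, Root S x → g * x * g⁻¹ = x⁻¹ := by
    intro g hg hgV x hx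
    refine h.root_conj_of_not_commute hS hx hg fun hgx => hgV (mem_rootCentralizer.mpr
      ⟨hg, fun y hy => commute_root_of_commute h hS hp hq hpq hg hx hy hgx⟩)
  have hsq : ∀ g ∈ S, g ∉ rootCentralizer S → g * g = 1 := by
    intro g hg hgV
    by_contra hgg
    obtain ⟨j, hr⟩ := exists_root hS hg hgg
    refine hgV (mem_rootCentralizer.mpr ⟨hg, fun y hy =>
      commute_root_of_commute h hS hp hq hpq hg hr hy (Commute.self_pow g _)⟩)
  refine ⟨hroots p hp, hroots q hq, hsq, fun g hg hgV k hk hkV =>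
    mem_rootCentralizer.mpr ⟨mul_mem hg hk, fun y hy =>
      commute_mul_of_inverts (hout g hg hgV y hy) (hout k hk hkV y hy)⟩, ?_⟩
  by_cases hex : ∃ g ∈ S, g ∉ rootCentralizer S
  · obtain ⟨g, hg, hgV⟩ := hex
    have hinv : ∀ v ∈ rootCentralizer S, g * v * g⁻¹ = v⁻¹ := by
      intro v hv
      have h1 := hsq (g * v) (mul_mem hg (mem_rootCentralizer.mp hv).1)
        (fun h0 => hgV (by simpa using mul_mem h0 (inv_mem hv)))
      rw [inv_eq_of_mul_eq_one_right (hsq g hg hgV), eq_inv_iff_mul_eq_one, ← h1]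
      group
    exact fun u hu v hv => commute_of_inverts (hinv u hu) (hinv v hv) (hinv _ (mul_mem hu hv))
  · push Not at hex
    have hall : ∀ g ∈ S, ∀ y, Root S y → Commute g y := fun g hg =>
      (mem_rootCentralizer.mp (hex g hg)).2
    have hinvol : ∀ x ∈ S, x * x = 1 → ∀ g ∈ S, Commute g x := by
      intro x hx hxx g hg
      have hxp := hall x hx p hp
      have := (hall g hg _ (hp.mul_of_commute hx hxx hxp).1).mul_right (hall g hg p hp).inv_right
      rwa [mul_inv_cancel_right] at this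
    have hnm : ∀ g ∈ S, ∀ x ∈ S, Nm g x := by
      intro g hg x hx
      by_cases hxx : x * x = 1
      · unfold Nm
        rw [(hinvol x hx hxx g hg).eq, mul_inv_cancel_right]
        exact Subgroup.mem_zpowers x
      · obtain ⟨j, hr⟩ := exists_root hS hx hxx
        exact h.nm_of_commute hr.orderOf_sq
          (mul_mem (Subgroup.npow_mem_zpowers x _) (Subgroup.npow_mem_zpowers x _))
          (Subgroup.mem_zpowers x) (h.root_central hS hr g hg)
    have hcomm := commute_of_cyclic_normal S hnm fun x hx h4 g hg => by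
      by_cases hxx : x * x = 1
      · exact hinvol x hx hxx g hg
      · exact hall g hg x ⟨hx, h4, hxx⟩
    exact fun u hu v hv =>
      hcomm u (mem_rootCentralizer.mp hu).1 v (mem_rootCentralizer.mp hv).1

end CfsgLib.NormCyclicEven16
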